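import Cfsg.Agent.H419.EP.Soc

/-!
# `U_4(3)` in `U_6(2)`: the facts on the socle (helper968, S3499)
-/

set_option autoImplicit false

namespace Cfsg.Agent.H968.EPU

open Subgroup Cfsg.Agent.H284

/-- The socle `N ≅ U_4(3)` of the stabiliser `A`, a Sylow 3-subgroup `P` of `N`, and `V ≤ P` of index 3 (the unipotent
radical of the stabiliser of an isotropic point). -/
structure LocN {Q : Type} [Group Q] (A N P V : Subgroup Q) : Prop where
  NA : N ≤ A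
  nrm : ∀ a ∈ A, ∀ n ∈ N, a * n * a⁻¹ ∈ N
  cN : Nat.card N = 3265920
  VP : V ≤ P
  PN : P ≤ N
  cV : Nat.card V = 243
  cP : Nat.card P = 729
  /-- `[V, V] ≤ Z(P)` -/
  comm : ∀ v ∈ V, ∀ w ∈ V, ∀ p ∈ P, p * (v * w * v⁻¹ * w⁻¹) = (v * w * v⁻¹ * w⁻¹) * p
  /-- `N_N(V)` is a parabolic subgroup -/
  small : ∀ W : Subgroup Q, W ≤ N → (∀ w ∈ W, ∀ v ∈ V, w * v * w⁻¹ ∈ V) → Nat.card W * 243 ≤ 3265920
  /-- the stabilisers of two points that contain `V` contain a Sylow subgroup over `V` -/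
  par : ∀ x, x ∉ A → V ≤ cj x A → ∃ P' : Subgroup Q, P' ≤ N ∧ P' ≤ cj x A ∧ V ≤ P' ∧ Nat.card P' = 729

end Cfsg.Agent.H968.EPU
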