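import Cfsg.Agent.S0827
import Cfsg.Agent.S0277
import Cfsg.Agent.LieClassical.GUOrder
import Cfsg.Prelude.Def_LieClassical

/-!
# `GU_3(2)` (helper968, S3499)

`tu : GU 3 F4 2 → M` the 9-tuple of a unitary matrix, `forall_checkG` the checking principle,
`HH` the normal subgroup `3^{1+2}` of order 27, `gen_of` : generation of the elements of determinant 1.
-/

set_option autoImplicit false
set_option maxRecDepth 100000

namespace Cfsg.Agent.H968.EPU.GUThree

open Cfsg Matrix Cfsg.Agent.Lib.FieldFour Cfsg.Agent.Lib.FieldFour.F4 Cfsg.Agent.ClassicalGeometry.SU32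
open Cfsg.Agent.S0827 (eqv isScal cube tA tX tD tP powM q8t q8t_mul anyL anyL_spec iffB iffB_spec dp eqv_iff mulM_scal
  ofM_smul_one)

/-- the group -/
abbrev G3 : Type := ↥(Cfsg.GU 3 F4 2)

/-- the matrix -/
abbrev mt (g : G3) : Matrix (Fin 3) (Fin 3) F4 := g.1.1

theorem mt_inj : Function.Injective mt := fun _ _ h => Subtype.ext (Units.ext h)

/-- the 9-tuple -/
def tu (g : G3) : M := toM (mt g)

theorem tu_inj : Function.Injective tu := toM_injective.comp mt_inj

theorem tu_mul (a b : G3) : tu (a * b) = mulM (tu a) (tu b) := by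
  rw [tu, tu, tu, ← toM_mul]
  rfl

theorem tu_one : tu 1 = oneM := by
  rw [tu, ← toM_one]
  rfl

theorem herm_cols (A : G3) (r s : Fin 3) :
    h3 (mt A 0 r) (mt A 1 r) (mt A 2 r) (mt A 0 s) (mt A 1 s) (mt A 2 s) = if r = s then 1 else 0 := by
  have h := A.2 (Pi.single r 1) (Pi.single s 1)
  rw [herm_eq, herm_eq] at h
  have key : ∀ t : Fin 3, (Units.coeHom (Matrix (Fin 3) (Fin 3) F4) A.1) *ᵥ (Pi.single t 1) = fun j => mt A j t := by
    intro t
    rw [Matrix.mulVec_single_one]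
    rfl
  rw [key, key] at h
  rw [h]
  clear h key
  revert r s
  decide

/-- Run through all matrices with orthonormal columns. -/
def checkG (P : M → Bool) : Bool :=
  all4 fun a => all4 fun d => all4 fun g => imp (beq (h3 a d g a d g) i) <|
  all4 fun b => all4 fun e => all4 fun h => imp (beq (h3 b e h b e h) i) <|
    imp (beq (h3 a d g b e h) o) <|
  all4 fun c => all4 fun f => all4 fun k => imp (beq (h3 a d g c f k) o) <|
    imp (beq (h3 b e h c f k) o) <| imp (beq (h3 c f k c f k) i) <|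
    P ⟨a, b, c, d, e, f, g, h, k⟩

theorem forall_checkG {P : M → Bool} (hP : checkG P = true) (g : G3) : P (tu g) = true := by
  have h11 : h3 (tu g).a (tu g).d (tu g).g (tu g).a (tu g).d (tu g).g = i := herm_cols g 0 0
  have h22 : h3 (tu g).b (tu g).e (tu g).h (tu g).b (tu g).e (tu g).h = i := herm_cols g 1 1
  have h33 : h3 (tu g).c (tu g).f (tu g).k (tu g).c (tu g).f (tu g).k = i := herm_cols g 2 2
  have h12 : h3 (tu g).a (tu g).d (tu g).g (tu g).b (tu g).e (tu g).h = o := herm_cols g 0 1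
  have h13 : h3 (tu g).a (tu g).d (tu g).g (tu g).c (tu g).f (tu g).k = o := herm_cols g 0 2
  have h23 : h3 (tu g).b (tu g).e (tu g).h (tu g).c (tu g).f (tu g).k = o := herm_cols g 1 2
  generalize tu g = A at *
  have h1 := imp_spec (all4_spec (all4_spec (all4_spec hP A.a) A.d) A.g) ((beq_iff _ _).2 h11)
  have h2 := imp_spec (all4_spec (all4_spec (all4_spec h1 A.b) A.e) A.h) ((beq_iff _ _).2 h22)
  have h3 := imp_spec h2 ((beq_iff _ _).2 h12)
  have h4 := imp_spec (all4_spec (all4_spec (all4_spec h3 A.c) A.f) A.k) ((beq_iff _ _).2 h13)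
  have h5 := imp_spec h4 ((beq_iff _ _).2 h23)
  exact imp_spec h5 ((beq_iff _ _).2 h33)

/-- Columns orthonormal. -/
def isUG (A : M) : Bool :=
  beq (h3 A.a A.d A.g A.a A.d A.g) i && (beq (h3 A.b A.e A.h A.b A.e A.h) i &&
  (beq (h3 A.c A.f A.k A.c A.f A.k) i && (beq (h3 A.a A.d A.g A.b A.e A.h) o &&
  (beq (h3 A.a A.d A.g A.c A.f A.k) o && (beq (h3 A.b A.e A.h A.c A.f A.k) o &&
  !(beq (detM A) o))))))

/-- The element of `GU_3(2)` with given 9-tuple. -/
noncomputable def mkG (A : M) (h : isUG A = true) : G3 :=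
  ⟨Matrix.GeneralLinearGroup.mkOfDetNeZero (ofM A) (by
    rw [detM_toM, toM_ofM]
    simp only [isUG, Bool.and_eq_true, Bool.not_eq_true'] at h
    intro h1
    have h2 := h.2.2.2.2.2.2
    rw [h1] at h2
    exact absurd h2 (by decide)), by
    simp only [isUG, Bool.and_eq_true, beq_iff, h3, dot3, ← mul_eq, ← add_eq, ← sq_eq] at h
    obtain ⟨h11, h22, h33, h12, h13, h23, -⟩ := h
    have h21 : A.b * A.a ^ 2 + (A.e * A.d ^ 2 + A.h * A.g ^ 2) = o := by
      have := congrArg (fun x => x ^ 2) h12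
      simp only [sq_add, mul_pow] at this
      have h4 : ∀ x : F4, (x ^ 2) ^ 2 = x := by decide
      rw [h4, h4, h4] at this
      rw [show (o : F4) = o ^ 2 by decide, ← this]
      ring
    have h31 : A.c * A.a ^ 2 + (A.f * A.d ^ 2 + A.k * A.g ^ 2) = o := by
      have := congrArg (fun x => x ^ 2) h13
      simp only [sq_add, mul_pow] at this
      have h4 : ∀ x : F4, (x ^ 2) ^ 2 = x := by decide
      rw [h4, h4, h4] at this
      rw [show (o : F4) = o ^ 2 by decide, ← this]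
      ring
    have h32 : A.c * A.b ^ 2 + (A.f * A.e ^ 2 + A.k * A.h ^ 2) = o := by
      have := congrArg (fun x => x ^ 2) h23
      simp only [sq_add, mul_pow] at this
      have h4 : ∀ x : F4, (x ^ 2) ^ 2 = x := by decide
      rw [h4, h4, h4] at this
      rw [show (o : F4) = o ^ 2 by decide, ← this]
      ring
    intro u v
    change hermForm 3 F4 2 (ofM A *ᵥ u) (ofM A *ᵥ v) = hermForm 3 F4 2 u v
    have key : ∀ (u : Fin 3 → F4),
        (ofM A *ᵥ u) 0 = A.a * u 0 + A.b * u 1 + A.c * u 2 ∧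
        (ofM A *ᵥ u) 1 = A.d * u 0 + A.e * u 1 + A.f * u 2 ∧
        (ofM A *ᵥ u) 2 = A.g * u 0 + A.h * u 1 + A.k * u 2 := by
      intro u
      refine ⟨?_, ?_, ?_⟩ <;>
      · rw [Matrix.mulVec, dotProduct, Fin.sum_univ_three]
        rfl
    obtain ⟨k0, k1, k2⟩ := key u
    obtain ⟨l0, l1, l2⟩ := key v
    rw [hermForm, hermForm, Fin.sum_univ_three, Fin.sum_univ_three, k0, k1, k2, l0, l1, l2]
    simp only [sq_add, mul_pow]
    have hi : (i : F4) = 1 := rfl
    have ho : (o : F4) = 0 := rfl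
    rw [hi] at h11 h22 h33
    rw [ho] at h12 h13 h23 h21 h31 h32
    linear_combination (u 0 * v 0 ^ 2) * h11 + (u 1 * v 1 ^ 2) * h22 + (u 2 * v 2 ^ 2) * h33 +
      (u 0 * v 1 ^ 2) * h12 + (u 0 * v 2 ^ 2) * h13 + (u 1 * v 2 ^ 2) * h23 +
      (u 1 * v 0 ^ 2) * h21 + (u 2 * v 0 ^ 2) * h31 + (u 2 * v 1 ^ 2) * h32⟩

theorem tu_mkG (A : M) (h : isUG A = true) : tu (mkG A h) = A := rfl

/-! ### determinant -/

/-- the determinant -/
def dt : G3 →* F4ˣ := GeneralLinearGroup.det.comp (Cfsg.GU 3 F4 2).subtype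

theorem dt_val (g : G3) : ((dt g : F4ˣ) : F4) = detM (tu g) := by
  rw [tu, ← detM_toM]
  rfl

theorem dt_eq_one_iff (g : G3) : dt g = 1 ↔ detM (tu g) = i := by
  rw [← Units.val_inj, dt_val]
  rfl

/-! ### inverses and scalars -/

/-- the conjugate transpose -/
def starM (A : M) : M := ⟨sq A.a, sq A.d, sq A.g, sq A.b, sq A.e, sq A.h, sq A.c, sq A.f, sq A.k⟩

theorem ck_star : checkG (fun A => beqM (mulM A (starM A)) oneM) = true := by decide +kernel

theorem ck_star' : checkG (fun A => isUG (starM A)) = true := by decide +kernel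

theorem tu_inv (g : G3) : tu g⁻¹ = starM (tu g) := by
  have h1 := (beqM_iff _ _).1 (forall_checkG ck_star g)
  have h2 : g * mkG (starM (tu g)) (forall_checkG ck_star' g) = 1 := by
    apply tu_inj
    rw [tu_mul, tu_mkG, h1, tu_one]
  rw [inv_eq_of_mul_eq_one_right h2, tu_mkG]

theorem sc_isU : ∀ c : F4, c ^ 3 = 1 → isUG (smulM c oneM) = true := by decide

/-- the scalar elements -/
noncomputable def sc (c : F4) (hc : c ^ 3 = 1) : G3 := mkG (smulM c oneM) (sc_isU c hc)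

theorem tu_sc (c : F4) (hc : c ^ 3 = 1) : tu (sc c hc) = smulM c oneM := rfl

theorem scal_mulM (A : M) (c : F4) : mulM (smulM c oneM) A = smulM c A := by
  rw [← toM_ofM A, ← ofM_smul_one, ← toM_mul, ← toM_smul, Matrix.smul_eq_diagonal_mul]

theorem sc_comm (c : F4) (hc : c ^ 3 = 1) (g : G3) : sc c hc * g = g * sc c hc := by
  apply tu_inj
  rw [tu_mul, tu_mul, tu_sc, mulM_scal, scal_mulM]

theorem isScal_iff (g : G3) : isScal (tu g) = true ↔ ∃ (c : F4) (hc : c ^ 3 = 1), g = sc c hc := by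
  rw [isScal, eqv_iff]
  constructor
  · rintro ⟨c, hc, h⟩
    exact ⟨c, hc, tu_inj h⟩
  · rintro ⟨c, hc, rfl⟩
    exact ⟨c, hc, tu_sc c hc⟩

/-- equality up to scalars -/
theorem eqv_tu_iff (g h : G3) : eqv (tu g) (tu h) = true ↔ isScal (tu (g * h⁻¹)) = true := by
  rw [isScal_iff, eqv_iff]
  constructor
  · rintro ⟨c, hc, h1⟩
    refine ⟨c, hc, ?_⟩
    rw [mul_inv_eq_iff_eq_mul]
    apply tu_inj
    rw [tu_mul, tu_sc, scal_mulM, h1]
  · rintro ⟨c, hc, h1⟩
    rw [mul_inv_eq_iff_eq_mul] at h1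
    refine ⟨c, hc, ?_⟩
    rw [h1, tu_mul, tu_sc, scal_mulM]

/-- the scalars -/
def Sc (g : G3) : Prop := isScal (tu g) = true

theorem Sc.comm {g : G3} (h : Sc g) (x : G3) : g * x = x * g := by
  obtain ⟨c, hc, rfl⟩ := (isScal_iff g).1 h
  exact sc_comm c hc x

theorem Sc.mul {a b : G3} (ha : Sc a) (hb : Sc b) : Sc (a * b) := by
  obtain ⟨c, hc, rfl⟩ := (isScal_iff a).1 ha
  obtain ⟨d, hd, rfl⟩ := (isScal_iff b).1 hb
  refine (isScal_iff _).2 ⟨c * d, by rw [mul_pow, hc, hd, one_mul], ?_⟩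
  apply tu_inj
  rw [tu_mul, tu_sc, tu_sc, tu_sc, mulM_scal]
  clear ha hb hc hd
  revert c d
  decide

theorem Sc.one : Sc 1 := by
  unfold Sc
  rw [tu_one]
  decide

theorem Sc.inv {a : G3} (ha : Sc a) : Sc a⁻¹ := by
  obtain ⟨c, hc, rfl⟩ := (isScal_iff a).1 ha
  unfold Sc
  rw [tu_inv, tu_sc]
  clear ha
  revert c
  decide

theorem Sc.conj {a : G3} (ha : Sc a) (x : G3) : Sc (x * a * x⁻¹) := by
  rw [← ha.comm, mul_inv_cancel_right]
  exact ha

theorem Sc.dt {a : G3} (ha : Sc a) : dt a = 1 := by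
  obtain ⟨c, hc, rfl⟩ := (isScal_iff a).1 ha
  rw [dt_eq_one_iff, tu_sc]
  clear ha
  revert c
  decide

theorem Sc.cube {a : G3} (ha : Sc a) : a ^ 3 = 1 := by
  obtain ⟨c, hc, rfl⟩ := (isScal_iff a).1 ha
  apply tu_inj
  rw [pow_succ, pow_two, tu_mul, tu_mul, tu_sc, tu_one]
  clear ha
  revert c
  decide

/-! ### the normal subgroup of order 27 -/

/-- membership test -/
def inH (A : M) : Bool := beq (detM A) i && isScal (cube A)

/-- the 27 elements -/
def HL : List M :=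
  [dp 0 0, dp 0 1, dp 0 2, dp 1 0, dp 1 1, dp 1 2, dp 2 0, dp 2 1, dp 2 2,
   smulM w (dp 0 0), smulM w (dp 0 1), smulM w (dp 0 2), smulM w (dp 1 0), smulM w (dp 1 1), smulM w (dp 1 2),
   smulM w (dp 2 0), smulM w (dp 2 1), smulM w (dp 2 2),
   smulM v (dp 0 0), smulM v (dp 0 1), smulM v (dp 0 2), smulM v (dp 1 0), smulM v (dp 1 1), smulM v (dp 1 2),
   smulM v (dp 2 0), smulM v (dp 2 1), smulM v (dp 2 2)]

theorem ck_H : checkG (fun A => iffB (inH A) (anyL HL (fun B => beqM A B))) = true := by decide +kernel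

theorem HL_mul : ∀ A ∈ HL, ∀ B ∈ HL, inH (mulM A B) = true := by decide +kernel

theorem HL_cube : ∀ A ∈ HL, cube A = oneM := by decide +kernel

theorem HL_inH : ∀ A ∈ HL, inH A = true := by decide +kernel

theorem HL_isU : ∀ A ∈ HL, isUG A = true := by decide +kernel

theorem HL_nodup : HL.Nodup := by decide +kernel

theorem inH_iff (g : G3) : inH (tu g) = true ↔ tu g ∈ HL := by
  constructor
  · intro h
    obtain ⟨B, hB, h1⟩ := anyL_spec ((iffB_spec (forall_checkG ck_H g)).1 h)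
    rw [(beqM_iff _ _).1 h1]
    exact hB
  · intro h
    exact HL_inH _ h

theorem cube_eq (g : G3) : tu (g ^ 3) = cube (tu g) := by
  rw [pow_succ', pow_two, tu_mul, tu_mul]
  rfl

/-- the normal subgroup of order 27 -/
def HH : Subgroup G3 where
  carrier := {g | inH (tu g) = true}
  mul_mem' {a b} ha hb := by
    rw [Set.mem_ofPred_eq, inH_iff] at ha hb
    rw [Set.mem_ofPred_eq, tu_mul]
    exact HL_mul _ ha _ hb
  one_mem' := by
    rw [Set.mem_ofPred_eq, tu_one]
    decide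
  inv_mem' {a} ha := by
    have h1 : a ^ 3 = 1 := by
      rw [Set.mem_ofPred_eq, inH_iff] at ha
      apply tu_inj
      rw [cube_eq, tu_one, HL_cube _ ha]
    have h2 : a⁻¹ = a * a := by
      rw [inv_eq_iff_mul_eq_one]
      rw [← mul_assoc, ← pow_two, ← pow_succ]
      exact h1
    rw [h2, Set.mem_ofPred_eq, tu_mul]
    rw [Set.mem_ofPred_eq, inH_iff] at ha
    exact HL_mul _ ha _ ha

theorem mem_HH (g : G3) : g ∈ HH ↔ inH (tu g) = true := Iff.rfl

theorem mem_HH_iff (g : G3) : g ∈ HH ↔ dt g = 1 ∧ Sc (g ^ 3) := by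
  rw [mem_HH, inH, Bool.and_eq_true, beq_iff, dt_eq_one_iff, Sc, cube_eq]

theorem HH.cube {g : G3} (h : g ∈ HH) : g ^ 3 = 1 := by
  rw [mem_HH, inH_iff] at h
  apply tu_inj
  rw [cube_eq, tu_one, HL_cube _ h]

theorem HH.conj {g : G3} (h : g ∈ HH) (x : G3) : x * g * x⁻¹ ∈ HH := by
  rw [mem_HH_iff] at h ⊢
  refine ⟨?_, ?_⟩
  · rw [map_mul, map_mul, map_inv, mul_comm (dt x), mul_inv_cancel_right]
    exact h.1
  · rw [conj_pow]
    exact h.2.conj x

theorem HH.of_sc {g : G3} (h : Sc g) : g ∈ HH := by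
  rw [mem_HH_iff]
  refine ⟨h.dt, ?_⟩
  rw [h.cube]
  exact Sc.one

theorem card_HH : Nat.card HH = 27 := by
  have hb : Function.Bijective (fun x : HH => (⟨tu x.1, List.mem_toFinset.2 ((inH_iff x.1).1 x.2)⟩ : HL.toFinset)) := by
    constructor
    · intro x y h
      exact Subtype.ext (tu_inj (congrArg (fun z : HL.toFinset => z.1) h))
    · rintro ⟨A, hA⟩
      have hA' : A ∈ HL := List.mem_toFinset.1 hA
      refine ⟨⟨mkG A (HL_isU A hA'), ?_⟩, ?_⟩
      · rw [mem_HH, tu_mkG]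
        exact HL_inH _ hA'
      · apply Subtype.ext
        rfl
  rw [Nat.card_congr (Equiv.ofBijective _ hb), Nat.card_eq_fintype_card, Fintype.card_coe,
    List.toFinset_card_of_nodup HL_nodup]
  rfl

/-! ### explicit elements -/

/-- `diag(1, w, v)` -/
noncomputable def eD : G3 := mkG tD (by decide)
/-- cyclic permutation matrix -/
noncomputable def eP : G3 := mkG tP (by decide)
/-- the Fourier matrix -/
noncomputable def eF : G3 := mkG tA (by decide)
/-- 9-tuple of `diag(1, w, w)` -/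
def tT : M := ⟨i, o, o, o, w, o, o, o, w⟩
/-- `diag(1, w, w)` -/
noncomputable def eT : G3 := mkG tT (by decide)

theorem tu_D : tu eD = tD := rfl
theorem tu_P : tu eP = tP := rfl
theorem tu_F : tu eF = tA := rfl
theorem tu_T : tu eT = tT := rfl

theorem D_mem : eD ∈ HH := by rw [mem_HH, tu_D]; decide +kernel
theorem P_mem : eP ∈ HH := by rw [mem_HH, tu_P]; decide +kernel
theorem dt_F : dt eF = 1 := by rw [dt_eq_one_iff, tu_F]; decide +kernel
theorem dt_T_ne : dt eT ≠ 1 := by rw [Ne, dt_eq_one_iff, tu_T]; decide +kernel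
theorem T_cube : eT ^ 3 = 1 := by
  apply tu_inj
  rw [cube_eq, tu_T, tu_one]
  decide +kernel

theorem ck_comm : checkG (fun A => imp (beqM (mulM A tD) (mulM tD A) && beqM (mulM A tP) (mulM tP A)) (isScal A)) =
    true := by decide +kernel

/-- the centralizer of `HH` -/
theorem sc_of_comm {g : G3} (h1 : g * eD = eD * g) (h2 : g * eP = eP * g) : Sc g := by
  refine imp_spec (forall_checkG ck_comm g) ?_
  rw [Bool.and_eq_true, beqM_iff, beqM_iff]
  refine ⟨?_, ?_⟩
  · rw [← tu_D, ← tu_mul, ← tu_mul, h1]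
  · rw [← tu_P, ← tu_mul, ← tu_mul, h2]

theorem ck_act : checkG (fun A => beq (detM A) i || !(eqv (mulM A tD) (mulM tD A) && eqv (mulM A tP) (mulM tP A))) =
    true := by decide +kernel

/-- elements of determinant `≠ 1` act nontrivially on `HH/Z` -/
theorem act {g : G3} (hg : dt g ≠ 1) : ∃ a ∈ HH, ¬ Sc (g * a * g⁻¹ * a⁻¹) := by
  have h := forall_checkG ck_act g
  rw [Bool.or_eq_true, beq_iff, ← dt_eq_one_iff] at h
  have h := h.resolve_left hg
  by_contra hcon
  push Not at hcon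
  have h1 : eqv (mulM (tu g) tD) (mulM tD (tu g)) = true := by
    rw [← tu_D, ← tu_mul, ← tu_mul, eqv_tu_iff]
    have e : g * eD * (eD * g)⁻¹ = g * eD * g⁻¹ * eD⁻¹ := by group
    rw [e]
    exact hcon _ D_mem
  have h2 : eqv (mulM (tu g) tP) (mulM tP (tu g)) = true := by
    rw [← tu_P, ← tu_mul, ← tu_mul, eqv_tu_iff]
    have e : g * eP * (eP * g)⁻¹ = g * eP * g⁻¹ * eP⁻¹ := by group
    rw [e]
    exact hcon _ P_mem
  rw [h1, h2] at h
  exact absurd h (by decide)

/-- `F⁻¹ g F g⁻¹` -/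
def cc (A : M) : M := mulM (mulM (starM tA) A) (mulM tA (starM A))

theorem ck_cc : checkG (fun A => beq (detM A) i || !(inH (mulM (cc A) (cc A)))) = true := by
  decide +kernel

/-- the commutator with `F` -/
theorem cc_spec {g : G3} (hg : dt g ≠ 1) : eF⁻¹ * g * eF * g⁻¹ * (eF⁻¹ * g * eF * g⁻¹) ∉ HH := by
  have h := forall_checkG ck_cc g
  rw [Bool.or_eq_true, beq_iff, ← dt_eq_one_iff] at h
  have h := h.resolve_left hg
  rw [mem_HH, tu_mul]
  have e : tu (eF⁻¹ * g * eF * g⁻¹) = cc (tu g) := by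
    rw [mul_assoc (eF⁻¹ * g), tu_mul, tu_mul, tu_mul, tu_inv, tu_inv, tu_F]
    rfl
  rw [e]
  intro h1
  rw [h1] at h
  exact absurd h (by decide)

/-! ### the quaternion group -/

theorem q8t_isUG : ∀ x : QuaternionGroup 2, isUG (q8t x) = true := by decide +kernel

/-- the quaternion subgroup -/
noncomputable def qg : QuaternionGroup 2 →* G3 where
  toFun x := mkG (q8t x) (q8t_isUG x)
  map_one' := tu_inj (by rw [tu_mkG, S0827.q8t_one, tu_one])
  map_mul' x y := tu_inj (by rw [tu_mul, tu_mkG, tu_mkG, tu_mkG, q8t_mul])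

theorem tu_qg (x : QuaternionGroup 2) : tu (qg x) = q8t x := rfl

theorem ck_q8 : checkG (fun A => imp (beq (detM A) i) (anyL
    [q8t (.a 0), q8t (.a 1), q8t (.a 2), q8t (.a 3), q8t (.xa 0), q8t (.xa 1), q8t (.xa 2),
      q8t (.xa 3)] (fun B => inH (mulM B A)))) = true := by
  decide +kernel

theorem exists_q {g : G3} (hg : dt g = 1) : ∃ x : QuaternionGroup 2, qg x * g ∈ HH := by
  obtain ⟨B, hB, hB'⟩ := anyL_spec (imp_spec (forall_checkG ck_q8 g) ((beq_iff _ _).2 ((dt_eq_one_iff g).1 hg)))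
  have : ∃ x, B = q8t x := by
    simp only [List.mem_cons, List.not_mem_nil, or_false] at hB
    rcases hB with h | h | h | h | h | h | h | h <;> exact ⟨_, h⟩
  obtain ⟨x, rfl⟩ := this
  refine ⟨x, ?_⟩
  rw [mem_HH, tu_mul, tu_qg]
  exact hB'

theorem F_eq : eF = qg (.a 1) := by
  apply tu_inj
  rw [tu_F, tu_qg]
  decide +kernel

/-- the action of `T` on the quaternion group, up to inverses -/
def sg : QuaternionGroup 2 → QuaternionGroup 2
  | .a j => if j = 0 then .a 0 else if j = 1 then .xa 2 else if j = 2 then .a 2 else .xa 0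
  | .xa j => if j = 0 then .xa 1 else if j = 1 then .a 1 else if j = 2 then .xa 3 else .a 3

theorem ck_sg : ∀ x : QuaternionGroup 2, inH (mulM (q8t (sg x)) (mulM (mulM tT (q8t x)) (starM tT))) = true := by
  decide +kernel

theorem sg_spec (x : QuaternionGroup 2) : qg (sg x) * (eT * qg x * eT⁻¹) ∈ HH := by
  rw [mem_HH, tu_mul, tu_mul, tu_mul, tu_inv, tu_T, tu_qg, tu_qg]
  exact ck_sg x

theorem q_gen (S : Subgroup (QuaternionGroup 2)) (hS : ∀ x ∈ S, sg x ∈ S) {x : QuaternionGroup 2} (hx : x ∈ S)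
    (hx2 : x * x ≠ 1) : S = ⊤ := by
  have h0 : ∀ x : QuaternionGroup 2, x * x ≠ 1 →
      (x = .a 1 ∨ x⁻¹ = .a 1 ∨ sg x = .a 1 ∨ (sg x)⁻¹ = .a 1 ∨ sg (sg x) = .a 1 ∨ (sg (sg x))⁻¹ = .a 1) ∧
      (x = .xa 0 ∨ x⁻¹ = .xa 0 ∨ sg x = .xa 0 ∨ (sg x)⁻¹ = .xa 0 ∨ sg (sg x) = .xa 0 ∨ (sg (sg x))⁻¹ = .xa 0) := by
    decide +kernel
  obtain ⟨h1, h2⟩ := h0 x hx2
  have m1 := hS x hx
  have m2 := hS _ m1
  have a1 : (.a 1 : QuaternionGroup 2) ∈ S := by
    rcases h1 with h | h | h | h | h | h <;> rw [← h]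
    · exact hx
    · exact S.inv_mem hx
    · exact m1
    · exact S.inv_mem m1
    · exact m2
    · exact S.inv_mem m2
  have x0 : (.xa 0 : QuaternionGroup 2) ∈ S := by
    rcases h2 with h | h | h | h | h | h <;> rw [← h]
    · exact hx
    · exact S.inv_mem hx
    · exact m1
    · exact S.inv_mem m1
    · exact m2
    · exact S.inv_mem m2
  have h3 : ∀ y : QuaternionGroup 2, (∃ k : Fin 4, y = (.a 1) ^ (k : ℕ)) ∨ ∃ k : Fin 4, y = .xa 0 * (.a 1) ^ (k : ℕ) := by
    decide +kernel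
  rw [Subgroup.eq_top_iff']
  intro y
  rcases h3 y with ⟨k, rfl⟩ | ⟨k, rfl⟩
  · exact S.pow_mem a1 _
  · exact S.mul_mem x0 (S.pow_mem a1 _)

/-- **Generation of the elements of determinant 1.** -/
theorem gen_of {L : Subgroup G3} (hH : HH ≤ L) (hT : ∀ l ∈ L, eT * l * eT⁻¹ ∈ L) {c : G3} (hc : c ∈ L)
    (hdet : dt c = 1) (hc2 : c * c ∉ HH) {s : G3} (hs : dt s = 1) : s ∈ L := by
  have key : ∀ (x : QuaternionGroup 2) (g : G3), qg x * g ∈ HH → g ∈ L → qg x ∈ L := by
    intro x g h1 h2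
    have h3 := L.mul_mem (hH h1) (L.inv_mem h2)
    rwa [mul_inv_cancel_right] at h3
  obtain ⟨x, hx⟩ := exists_q hdet
  have hxL : qg x ∈ L := key x c hx hc
  have hx2 : x * x ≠ 1 := by
    intro e
    apply hc2
    have h1 : qg x * qg x = 1 := by rw [← map_mul, e, map_one]
    have h2 := HH.mul_mem (HH.conj hx (qg x)⁻¹) hx
    have e2 : (qg x)⁻¹ * (qg x * c) * (qg x)⁻¹⁻¹ * (qg x * c) = c * (qg x * qg x) * c := by group
    rw [e2, h1, mul_one] at h2
    exact h2
  have htop : L.comap qg = ⊤ := by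
    apply q_gen _ _ (Subgroup.mem_comap.2 hxL) hx2
    intro y hy
    exact key _ _ (sg_spec y) (hT _ hy)
  obtain ⟨y, hy⟩ := exists_q hs
  have hyL : qg y ∈ L := by
    have : y ∈ L.comap qg := by rw [htop]; exact Subgroup.mem_top _
    exact this
  have h3 := L.mul_mem (L.inv_mem hyL) (hH hy)
  rwa [inv_mul_cancel_left] at h3

/-! ### orders -/

instance finite_G3 : Finite G3 := Cfsg.Agent.LieClassical.GUOrder.finite_GU 3

theorem card_G3 : Nat.card G3 = 648 := by
  have h := S0277.result (F := F4) (q := 2) (by rw [F4.card]; norm_num) 3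
  norm_num [Finset.prod_range_succ, Nat.even_iff] at h
  exact h

theorem dt_surj : Function.Surjective dt := by
  have h0 : ∀ u : F4ˣ, u = 1 ∨ (u : F4) = v ∨ (u : F4) = w := by
    intro u
    rcases h : (u : F4) with _ | _ | _ | _
    · exact absurd h u.ne_zero
    · left; exact Units.ext h
    · right; right; rfl
    · right; left; rfl
  intro u
  rcases h0 u with rfl | h | h
  · exact ⟨1, map_one _⟩
  · refine ⟨eT, Units.ext ?_⟩
    rw [dt_val, tu_T, h]
    decide +kernel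
  · refine ⟨eT * eT, Units.ext ?_⟩
    rw [dt_val, tu_mul, tu_T, h]
    decide +kernel

theorem card_ker : Nat.card dt.ker = 216 := by
  have h1 := Subgroup.card_mul_index dt.ker
  rw [Subgroup.index_ker, MonoidHom.range_eq_top.2 dt_surj, Subgroup.card_top, card_G3, Nat.card_eq_fintype_card (α := F4ˣ),
    Fintype.card_units, F4.card] at h1
  omega

end Cfsg.Agent.H968.EPU.GUThree
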