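import Cfsg.Agent.H968.EPU.GUThree
import Cfsg.Agent.H18.USix
import Cfsg.Agent.ClassicalGeometry.PSUAutBasic

/-!
# `GU_3(2) × GU_3(2)` and `U_6(2)` (helper968, S3499)

`BB` : the pairs with product of determinants 1; `psi : BB →* PSU 6 F4 2` with kernel the scalars;
`cen` : the centralizer of `psi (1, w)` is the range; `conj_z` : every element of order 3 that centralizes a Sylow
3-subgroup is conjugate to `psi (1, w)`.
-/

set_option autoImplicit false
set_option maxRecDepth 100000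

namespace Cfsg.Agent.H968.EPU.PsiSix

open Cfsg Matrix Cfsg.Agent.Lib.FieldFour Cfsg.Agent.Lib.FieldFour.F4 Cfsg.Agent.ClassicalGeometry.SU32
open Cfsg.Agent.H968.EPU.GUThree Cfsg.Agent.H322.Cent
open Cfsg.Agent.ClassicalGeometry.PSUAutBasic (exists_scalar_of_mem_center mem_center_of_act)

theorem hF : Fintype.card F4 = 2 ^ 2 := rfl

theorem hF4 : Fintype.card F4 = 4 := rfl

/-- pairs of unitary matrices with product of determinants 1 -/
def BB : Subgroup (G3 × G3) where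
  carrier := {x | dt x.1 * dt x.2 = 1}
  mul_mem' {a b} ha hb := by
    have e : dt (a * b).1 * dt (a * b).2 = (dt a.1 * dt a.2) * (dt b.1 * dt b.2) := by
      rw [Prod.fst_mul, Prod.snd_mul, map_mul, map_mul]
      exact mul_mul_mul_comm _ _ _ _
    have ha' : dt a.1 * dt a.2 = 1 := ha
    have hb' : dt b.1 * dt b.2 = 1 := hb
    show dt (a * b).1 * dt (a * b).2 = 1
    rw [e, ha', hb', one_mul]
  one_mem' := by
    show dt 1 * dt 1 = 1
    rw [map_one, one_mul]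
  inv_mem' {a} ha := by
    have ha' : dt a.1 * dt a.2 = 1 := ha
    show dt (a⁻¹).1 * dt (a⁻¹).2 = 1
    rw [Prod.fst_inv, Prod.snd_inv, map_inv, map_inv, ← mul_inv, ha', inv_one]

theorem mem_BB {x : G3 × G3} : x ∈ BB ↔ dt x.1 * dt x.2 = 1 := Iff.rfl

theorem herm_split (x y : Fin (3 + 3) → F4) : hermForm (3 + 3) F4 2 x y =
    hermForm 3 F4 2 (fun j => x (Fin.castAdd 3 j)) (fun j => y (Fin.castAdd 3 j)) +
    hermForm 3 F4 2 (fun j => x (Fin.natAdd 3 j)) (fun j => y (Fin.natAdd 3 j)) := by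
  unfold hermForm
  rw [Fin.sum_univ_add]

theorem bdm_act (A B : Matrix (Fin 3) (Fin 3) F4) (x : Fin (3 + 3) → F4) (i : Fin 3) :
    (bdm A B *ᵥ x) (Fin.castAdd 3 i) = (A *ᵥ fun j => x (Fin.castAdd 3 j)) i ∧
      (bdm A B *ᵥ x) (Fin.natAdd 3 i) = (B *ᵥ fun j => x (Fin.natAdd 3 j)) i := by
  have key : ∀ i, (bdm A B *ᵥ x) (finSumFinEquiv i) =
      Sum.elim (A *ᵥ fun j => x (Fin.castAdd 3 j)) (B *ᵥ fun j => x (Fin.natAdd 3 j)) i := by
    intro i
    unfold bdm
    rw [submatrix_mulVec_equiv]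
    simp only [Function.comp_apply, Equiv.symm_symm, Equiv.symm_apply_apply]
    rw [fromBlocks_mulVec]
    rcases i with i | i <;> simp <;> rfl
  exact ⟨key (Sum.inl i), key (Sum.inr i)⟩

theorem bdm_inj {A B A' B' : Matrix (Fin 3) (Fin 3) F4} (h : bdm A B = bdm A' B') : A = A' ∧ B = B' := by
  constructor
  · ext i j
    rw [← bdm_castAdd A B, h, bdm_castAdd]
  · ext i j
    rw [← bdm_natAdd A B, h, bdm_natAdd]

theorem ofM_one' : bdm (1 : Matrix (Fin 3) (Fin 3) F4) (1 : Matrix (Fin 3) (Fin 3) F4) = 1 := bdm_one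

theorem det_eq {x : G3 × G3} (hx : x ∈ BB) : (bdm (mt x.1) (mt x.2)).det = 1 := by
  rw [bdm_det]
  have h := congrArg Units.val (mem_BB.1 hx)
  exact h

/-- the block diagonal embedding -/
noncomputable def ff : BB →* SU (3 + 3) F4 2 where
  toFun x := ⟨⟨bdm (mt x.1.1) (mt x.1.2), det_eq x.2⟩, by
    refine (Cfsg.Agent.LieClassical.SUBasic.mem_SU_iff _).2 fun u v => ?_
    change hermForm (3 + 3) F4 2 (bdm (mt x.1.1) (mt x.1.2) *ᵥ u) (bdm (mt x.1.1) (mt x.1.2) *ᵥ v) = _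
    rw [herm_split, herm_split u v]
    have e1 : ∀ z, (fun j => (bdm (mt x.1.1) (mt x.1.2) *ᵥ z) (Fin.castAdd 3 j)) =
        mt x.1.1 *ᵥ fun j => z (Fin.castAdd 3 j) := fun z => funext fun j => (bdm_act _ _ z j).1
    have e2 : ∀ z, (fun j => (bdm (mt x.1.1) (mt x.1.2) *ᵥ z) (Fin.natAdd 3 j)) =
        mt x.1.2 *ᵥ fun j => z (Fin.natAdd 3 j) := fun z => funext fun j => (bdm_act _ _ z j).2
    rw [e1, e1, e2, e2]
    have h1 := x.1.1.2 (fun j => u (Fin.castAdd 3 j)) (fun j => v (Fin.castAdd 3 j))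
    have h2 := x.1.2.2 (fun j => u (Fin.natAdd 3 j)) (fun j => v (Fin.natAdd 3 j))
    exact congrArg₂ (· + ·) h1 h2⟩
  map_one' := Subtype.ext (Subtype.ext bdm_one)
  map_mul' x y := Subtype.ext (Subtype.ext (bdm_mul _ _ _ _))

theorem ff_mat (x : BB) : (ff x).1.1 = bdm (mt x.1.1) (mt x.1.2) := rfl

theorem ff_inj : Function.Injective ff := by
  intro x y h
  have h1 : bdm (mt x.1.1) (mt x.1.2) = bdm (mt y.1.1) (mt y.1.2) :=
    congrArg (fun Y : SU (3 + 3) F4 2 => Y.1.1) h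
  obtain ⟨h2, h3⟩ := bdm_inj h1
  exact Subtype.ext (Prod.ext (mt_inj h2) (mt_inj h3))

/-- the projection to `U_6(2)` -/
noncomputable def pr6 : SU 6 F4 2 →* PSU 6 F4 2 := QuotientGroup.mk' (Subgroup.center (SU 6 F4 2))

/-- the homomorphism -/
noncomputable def psi : BB →* PSU 6 F4 2 := pr6.comp ff

theorem mt_sc (c : F4) (hc : c ^ 3 = 1) : mt (sc c hc) = c • (1 : Matrix (Fin 3) (Fin 3) F4) := by
  apply toM_injective
  rw [toM_smul, toM_one]
  rfl

theorem bdm_smul (c : F4) : bdm (c • (1 : Matrix (Fin 3) (Fin 3) F4)) (c • (1 : Matrix (Fin 3) (Fin 3) F4)) =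
    c • (1 : Matrix (Fin (3 + 3)) (Fin (3 + 3)) F4) := by
  rw [← bdm_one]
  unfold bdm
  have h : (fromBlocks (c • (1 : Matrix (Fin 3) (Fin 3) F4)) 0 0 (c • (1 : Matrix (Fin 3) (Fin 3) F4))) =
      c • fromBlocks (1 : Matrix (Fin 3) (Fin 3) F4) 0 0 (1 : Matrix (Fin 3) (Fin 3) F4) := by
    rw [fromBlocks_smul, smul_zero]
  rw [h]
  rfl

theorem psi_eq_one_iff (x : BB) : psi x = 1 ↔ Sc x.1.1 ∧ x.1.1 = x.1.2 := by
  constructor
  · intro h
    have h1 : ff x ∈ Subgroup.center (SU 6 F4 2) := (QuotientGroup.eq_one_iff _).1 h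
    obtain ⟨c, hc0, hcq, hc⟩ := exists_scalar_of_mem_center hF (by norm_num) h1
    have hc3 : c ^ 3 = 1 := by
      rw [← hcq]
      ring
    have h2 : (ff x).1.1 = c • (1 : Matrix (Fin (3 + 3)) (Fin (3 + 3)) F4) := by
      apply Matrix.mulVec_injective
      funext v
      have h3 : (ff x).1.1 *ᵥ v = c • v := hc v
      rw [h3, Matrix.smul_mulVec, Matrix.one_mulVec]
    rw [ff_mat, ← bdm_smul] at h2
    obtain ⟨h3, h4⟩ := bdm_inj h2
    have h5 : x.1.1 = sc c hc3 := mt_inj (by rw [h3, mt_sc])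
    have h6 : x.1.2 = sc c hc3 := mt_inj (by rw [h4, mt_sc])
    refine ⟨(isScal_iff _).2 ⟨c, hc3, h5⟩, by rw [h5, h6]⟩
  · rintro ⟨h1, h2⟩
    obtain ⟨c, hc, h3⟩ := (isScal_iff _).1 h1
    refine (QuotientGroup.eq_one_iff _).2 (mem_center_of_act (c := c) fun v => ?_)
    change (ff x).1.1 *ᵥ v = c • v
    rw [ff_mat, ← h2, h3, mt_sc, bdm_smul, Matrix.smul_mulVec, Matrix.one_mulVec]

/-- the element `(1, w)` -/
noncomputable def z1 : BB := ⟨(1, sc w (by decide)), by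
  rw [mem_BB]
  have h1 : dt (sc w (by decide)) = 1 := Sc.dt ((isScal_iff _).2 ⟨w, by decide, rfl⟩)
  show dt 1 * dt (sc w (by decide)) = 1
  rw [map_one, h1, one_mul]⟩

theorem z1_comm (x : BB) : z1 * x = x * z1 := by
  apply Subtype.ext
  apply Prod.ext
  · show 1 * x.1.1 = x.1.1 * 1
    rw [one_mul, mul_one]
  · exact sc_comm w (by decide) x.1.2

/-- the model element of helper18 -/
noncomputable def dg' : SU 6 F4 2 := H18.USix.dg 1 w (one_pow 3) (by decide)

theorem dg'_mat : dg'.1.1 = Matrix.diagonal (fun i : Fin 6 => if i < 3 then (1 : F4) else w) := rfl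

theorem castAdd_lt (i : Fin 3) : (Fin.castAdd 3 i : Fin 6) < 3 := by
  revert i; decide

theorem natAdd_lt (i : Fin 3) : ¬ (Fin.natAdd 3 i : Fin 6) < 3 := by
  revert i; decide

theorem ff_z1 : ff z1 = dg' := by
  apply Subtype.ext
  apply Subtype.ext
  rw [ff_mat, dg'_mat]
  apply Matrix.mulVec_injective
  funext x
  funext k
  have h1 : mt z1.1.1 = 1 := rfl
  have h2 : mt z1.1.2 = w • (1 : Matrix (Fin 3) (Fin 3) F4) := mt_sc w (by decide)
  rw [h1, h2]
  have e : ∀ k : Fin (3 + 3), (bdm (1 : Matrix (Fin 3) (Fin 3) F4) (w • (1 : Matrix (Fin 3) (Fin 3) F4)) *ᵥ x) k =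
      (Matrix.diagonal (fun i : Fin (3 + 3) => if (i : Fin 6) < 3 then (1 : F4) else w) *ᵥ x) k := by
    intro k
    induction k using Fin.addCases with
    | left i =>
      rw [(bdm_act _ _ x i).1, Matrix.one_mulVec, Matrix.mulVec_diagonal, if_pos (castAdd_lt i), one_mul]
    | right i =>
      rw [(bdm_act _ _ x i).2, Matrix.smul_mulVec, Matrix.one_mulVec, Matrix.mulVec_diagonal, if_neg (natAdd_lt i)]
      rfl
  exact e k

/-- matrices commuting with the model element are block diagonal -/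
theorem block {X : SU (3 + 3) F4 2} (h : X * ff z1 = ff z1 * X) : ∃ x : BB, X = ff x := by
  have hm : X.1.1 * (ff z1).1.1 = (ff z1).1.1 * X.1.1 := congrArg (fun Y : SU (3 + 3) F4 2 => Y.1.1) h
  rw [ff_z1, dg'_mat] at hm
  have he : ∀ k l : Fin 6, X.1.1 k l * (if l < 3 then (1 : F4) else w) = (if k < 3 then (1 : F4) else w) * X.1.1 k l := by
    intro k l
    have := congrFun (congrFun hm k) l
    rwa [Matrix.mul_diagonal, Matrix.diagonal_mul] at this
  have h0 : ∀ a : F4, a * w = 1 * a → a = 0 := by decide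
  have h0' : ∀ a : F4, a * 1 = w * a → a = 0 := by decide
  let g : Matrix (Fin 3) (Fin 3) F4 := fun i j => X.1.1 (Fin.castAdd 3 i) (Fin.castAdd 3 j)
  let g' : Matrix (Fin 3) (Fin 3) F4 := fun i j => X.1.1 (Fin.natAdd 3 i) (Fin.natAdd 3 j)
  have hX : X.1.1 = bdm g g' := by
    ext k l
    unfold bdm
    rw [Matrix.submatrix_apply]
    obtain ⟨k', rfl⟩ := (finSumFinEquiv (m := 3) (n := 3)).surjective k
    obtain ⟨l', rfl⟩ := (finSumFinEquiv (m := 3) (n := 3)).surjective l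
    rw [Equiv.symm_apply_apply, Equiv.symm_apply_apply]
    rcases k' with i | i <;> rcases l' with j | j
    · rfl
    · rw [Matrix.fromBlocks_apply₁₂]
      have := he (Fin.castAdd 3 i) (Fin.natAdd 3 j)
      rw [if_neg (natAdd_lt j), if_pos (castAdd_lt i)] at this
      exact h0 _ this
    · rw [Matrix.fromBlocks_apply₂₁]
      have := he (Fin.natAdd 3 i) (Fin.castAdd 3 j)
      rw [if_neg (natAdd_lt i), if_pos (castAdd_lt j)] at this
      exact h0' _ this
    · rfl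
  have hdet : g.det * g'.det = 1 := by
    rw [← bdm_det, ← hX]
    exact X.1.2
  have hg0 : g.det ≠ 0 := left_ne_zero_of_mul_eq_one hdet
  have hg0' : g'.det ≠ 0 := right_ne_zero_of_mul_eq_one hdet
  have hform : ∀ u v : Fin (3 + 3) → F4, hermForm (3 + 3) F4 2 (bdm g g' *ᵥ u) (bdm g g' *ᵥ v) =
      hermForm (3 + 3) F4 2 u v := by
    intro u v
    rw [← hX]
    exact (Cfsg.Agent.LieClassical.SUBasic.mem_SU_iff _).1 X.2 u v
  have e1 : ∀ z, (fun j => (bdm g g' *ᵥ z) (Fin.castAdd 3 j)) =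
      g *ᵥ fun j => z (Fin.castAdd 3 j) := fun z => funext fun j => (bdm_act _ _ z j).1
  have e2 : ∀ z, (fun j => (bdm g g' *ᵥ z) (Fin.natAdd 3 j)) =
      g' *ᵥ fun j => z (Fin.natAdd 3 j) := fun z => funext fun j => (bdm_act _ _ z j).2
  have hz : hermForm 3 F4 2 (fun _ => 0) (fun _ => 0) = 0 := by decide
  have hg : ∀ u v : Fin 3 → F4, hermForm 3 F4 2 (g *ᵥ u) (g *ᵥ v) = hermForm 3 F4 2 u v := by
    intro u v
    have h1 := hform (Fin.append u (fun _ => 0)) (Fin.append v (fun _ => 0))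
    rw [herm_split, herm_split (Fin.append u _), e1, e1, e2, e2] at h1
    simp only [Fin.append_left, Fin.append_right] at h1
    have h2 : g' *ᵥ (fun _ => (0 : F4)) = fun _ => 0 := Matrix.mulVec_zero g'
    rw [h2, hz, add_zero, add_zero] at h1
    exact h1
  have hg' : ∀ u v : Fin 3 → F4, hermForm 3 F4 2 (g' *ᵥ u) (g' *ᵥ v) = hermForm 3 F4 2 u v := by
    intro u v
    have h1 := hform (Fin.append (fun _ => 0) u) (Fin.append (fun _ => 0) v)
    rw [herm_split, herm_split (Fin.append _ u), e1, e1, e2, e2] at h1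
    simp only [Fin.append_left, Fin.append_right] at h1
    have h2 : g *ᵥ (fun _ => (0 : F4)) = fun _ => 0 := Matrix.mulVec_zero g
    rw [h2, hz, zero_add, zero_add] at h1
    exact h1
  let a : G3 := ⟨Matrix.GeneralLinearGroup.mkOfDetNeZero g hg0, hg⟩
  let b : G3 := ⟨Matrix.GeneralLinearGroup.mkOfDetNeZero g' hg0', hg'⟩
  have hab : (a, b) ∈ BB := by
    rw [mem_BB]
    apply Units.ext
    exact hdet
  refine ⟨⟨(a, b), hab⟩, ?_⟩
  apply Subtype.ext
  apply Subtype.ext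
  rw [ff_mat]
  exact hX

theorem cen {y : PSU 6 F4 2} (h : y * psi z1 = psi z1 * y) : ∃ x : BB, y = psi x := by
  obtain ⟨X, rfl⟩ := QuotientGroup.mk_surjective y
  have h1 : (X : SU 6 F4 2) * ff z1 * X⁻¹ * (ff z1)⁻¹ ∈ Subgroup.center (SU 6 F4 2) := by
    rw [← QuotientGroup.eq_one_iff]
    have h2 : pr6 X * pr6 (ff z1) = pr6 (ff z1) * pr6 X := h
    show pr6 (X * ff z1 * X⁻¹ * (ff z1)⁻¹) = 1
    rw [map_mul, map_mul, map_mul, map_inv, map_inv, h2]
    group
  have h2 : (ff z1 : SU 6 F4 2).1.1.trace ≠ 0 := by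
    rw [ff_z1, dg'_mat, Matrix.trace_diagonal]
    decide
  have h3 := H18.USix.comm_of_trace hF4 h1 h2
  obtain ⟨x, hx⟩ := block h3
  exact ⟨x, by rw [hx]; rfl⟩

theorem conj_z {z : PSU 6 F4 2} (hz : z ≠ 1)
    (h3 : 3 ^ 6 ∣ Nat.card ↥(Subgroup.centralizer ({z} : Set (PSU 6 F4 2)))) : IsConj z (psi z1) := by
  have h := H18.USix.conj_model hF4 (ω := w) (by decide) (by decide) hz h3
  have e : psi z1 = ((dg' : SU 6 F4 2) : PSU 6 F4 2) := by
    show pr6 (ff z1) = _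
    rw [ff_z1]
    rfl
  rw [e]
  exact h

end Cfsg.Agent.H968.EPU.PsiSix
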