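import Cfsg.Agent.H968.EPU.QSide

/-!
# `U_4(3)` in `U_6(2)`, the end of the 3-local argument (helper968, S3499)
-/

set_option autoImplicit false
set_option linter.unusedVariables false

namespace Cfsg.Agent.H968.EPU.QEnd

open Cfsg Subgroup Cfsg.Agent.Lib.FieldFour Cfsg.Agent.Lib.FieldFour.F4
open Cfsg.Agent.H968.EPU Cfsg.Agent.H968.EPU.GUThree Cfsg.Agent.H968.EPU.PsiSix Cfsg.Agent.H968.EPU.QSide
open Cfsg.Agent.H284 (cj mem_cj)

/-- the elements of `HH` that commute with `g` modulo scalars -/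
def SG (g : G3) : Subgroup G3 where
  carrier := {a | a ∈ HH ∧ Sc (g * a * g⁻¹ * a⁻¹)}
  mul_mem' {a b} ha hb := by
    refine ⟨HH.mul_mem ha.1 hb.1, ?_⟩
    have e : g * (a * b) * g⁻¹ * (a * b)⁻¹ = (g * a * g⁻¹ * a⁻¹) * (a * (g * b * g⁻¹ * b⁻¹) * a⁻¹) := by group
    rw [e]
    exact ha.2.mul (hb.2.conj a)
  one_mem' := by
    refine ⟨HH.one_mem, ?_⟩
    have e : g * 1 * g⁻¹ * 1⁻¹ = 1 := by group
    rw [e]
    exact Sc.one
  inv_mem' {a} ha := by
    refine ⟨HH.inv_mem ha.1, ?_⟩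
    have e : g * a⁻¹ * g⁻¹ * a⁻¹⁻¹ = a⁻¹ * (a * g * a⁻¹ * g⁻¹) * a⁻¹⁻¹ := by group
    have e2 : a * g * a⁻¹ * g⁻¹ = (g * a * g⁻¹ * a⁻¹)⁻¹ := by group
    rw [e, e2]
    exact (ha.2.inv).conj _

theorem SG_le (g : G3) : SG g ≤ HH := fun _ h => h.1

theorem card_SG {g : G3} (hg : dt g ≠ 1) : Nat.card (SG g) ≤ 9 := by
  obtain ⟨a, ha, hna⟩ := act hg
  have h1 := card_mul_rel (SG_le g)
  rw [card_HH] at h1
  have h2 : (SG g).relIndex HH ≠ 1 := by
    intro h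
    rw [relIndex_eq_one] at h
    exact hna (h ha).2
  have h3 : (SG g).relIndex HH ≠ 0 := by
    intro h
    rw [h, mul_zero] at h1
    exact absurd h1 (by norm_num)
  have h4 : (SG g).relIndex HH ≠ 2 := by
    intro h
    rw [h] at h1
    omega
  by_contra hcon
  push Not at hcon
  have h5 : 3 ≤ (SG g).relIndex HH := by omega
  have h6 : 10 * 3 ≤ Nat.card (SG g) * (SG g).relIndex HH := Nat.mul_le_mul hcon h5
  rw [h1] at h6
  omega

/-- standing hypotheses -/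
structure Stp {Q : Type} [Group Q] (A N P V : Subgroup Q) (ψ : BB →* Q) : Prop where
  L : LocN A N P V
  cQ : Nat.card Q = 9196830720
  D : Dat ψ
  zP : ∀ p ∈ P, p * ψ z1 = ψ z1 * p
  tP : ψ t0 ∈ P

variable {Q : Type} [Group Q] [Finite Q] {A N P V : Subgroup Q} {ψ : BB →* Q}

theorem pgroup_of_card {S : Subgroup Q} {k : ℕ} (h : Nat.card S = 3 ^ k) : IsPGroup 3 S := IsPGroup.of_card h

theorem pmax (cQ : Nat.card Q = 9196830720) (cP : Nat.card P = 729) (S : Subgroup Q) (hS : IsPGroup 3 S) (hPS : P ≤ S) :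
    S = P := by
  have h3 : Fact (Nat.Prime 3) := ⟨Nat.prime_three⟩
  symm
  apply eq_of_le_of_card_ge hPS
  obtain ⟨k, hk⟩ := IsPGroup.iff_card.1 hS
  have h1 : 3 ^ k ∣ 9196830720 := by
    rw [← hk, ← cQ]
    exact card_subgroup_dvd_card S
  have h2 : k ≤ 6 := by
    by_contra hcon
    push Not at hcon
    have h4 : 3 ^ 7 ∣ 9196830720 := (pow_dvd_pow 3 hcon).trans h1
    exact absurd h4 (by norm_num)
  rw [hk, cP]
  calc 3 ^ k ≤ 3 ^ 6 := Nat.pow_le_pow_right (by norm_num) h2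
    _ = 729 := by norm_num

theorem conj_V (x : BB) {v : Q} (hv : v ∈ HB.map ψ) : ψ x * v * (ψ x)⁻¹ ∈ HB.map ψ := by
  obtain ⟨y, hy, rfl⟩ := hv
  refine ⟨x * y * x⁻¹, HB_conj hy x, ?_⟩
  rw [map_mul, map_mul, map_inv]

theorem conj_V' (x : BB) {v : Q} (hv : v ∈ HB.map ψ) : (ψ x)⁻¹ * v * ψ x ∈ HB.map ψ := by
  have h := conj_V x⁻¹ hv
  rwa [map_inv, inv_inv] at h

namespace Stp

variable (S : Stp A N P V ψ)

include S

theorem VP : HB.map ψ ≤ P := by
  have h3 : Fact (Nat.Prime 3) := ⟨Nat.prime_three⟩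
  have h1 : IsPGroup 3 (HB.map ψ) := IsPGroup.of_card (n := 5) (by rw [S.D.card_V]; norm_num)
  have h2 : IsPGroup 3 P := IsPGroup.of_card (n := 6) (by rw [S.L.cP]; norm_num)
  have h4 : P ≤ normalizer (HB.map ψ : Set Q) := by
    intro p hp
    obtain ⟨x, rfl⟩ := S.D.cen p (S.zP p hp)
    rw [mem_normalizer_iff]
    intro h
    constructor
    · exact fun hh => conj_V x hh
    · intro hh
      have h5 := conj_V' x hh
      have e : (ψ x)⁻¹ * (ψ x * h * (ψ x)⁻¹) * ψ x = h := by group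
      rwa [e] at h5
  have h5 := IsPGroup.to_sup_of_normal_left' h1 h2 h4
  have h6 := pmax S.cQ S.L.cP _ h5 le_sup_right
  calc HB.map ψ ≤ HB.map ψ ⊔ P := le_sup_left
    _ = P := h6

theorem PSB {x : BB} (hx : ψ x ∈ P) (hd : dt x.1.1 = 1) : ψ x ∈ HB.map ψ := by
  have h3 : Fact (Nat.Prime 3) := ⟨Nat.prime_three⟩
  have h2 : IsPGroup 3 P := IsPGroup.of_card (n := 6) (by rw [S.L.cP]; norm_num)
  have h4 : IsPGroup 3 (P ⊓ SB.map ψ : Subgroup Q) := h2.to_le inf_le_left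
  obtain ⟨k, hk⟩ := IsPGroup.iff_card.1 h4
  have h5 : 3 ^ k ∣ 15552 := by
    rw [← hk, ← S.D.card_W]
    exact card_dvd_of_le inf_le_right
  have h6 : k ≤ 5 := by
    by_contra hcon
    push Not at hcon
    have h7 : 3 ^ 6 ∣ 15552 := (pow_dvd_pow 3 hcon).trans h5
    exact absurd h7 (by norm_num)
  have h7 : HB.map ψ ≤ P ⊓ SB.map ψ := le_inf S.VP (map_mono HB_le_SB)
  have h8 : HB.map ψ = P ⊓ SB.map ψ := by
    apply eq_of_le_of_card_ge h7
    rw [hk, S.D.card_V]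
    calc 3 ^ k ≤ 3 ^ 5 := Nat.pow_le_pow_right (by norm_num) h6
      _ = 243 := by norm_num
  rw [h8]
  exact ⟨hx, x, hd, rfl⟩

/-- **identification of the radical** -/
theorem VV : V = HB.map ψ := by
  by_contra hne
  have hVV : ¬ V ≤ HB.map ψ := fun h => hne (eq_of_le_of_card_ge h (by rw [S.D.card_V, S.L.cV]))
  obtain ⟨v, hv, hv'⟩ := SetLike.not_le_iff_exists.1 hVV
  obtain ⟨x, rfl⟩ := S.D.cen v (S.zP v (S.L.VP hv))
  have hd : dt x.1.1 ≠ 1 := fun h => hv' (S.PSB (S.L.VP hv) h)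
  have hd' := dt_snd_ne hd
  have h1 := card_mul_rel S.VP
  rw [S.D.card_V, S.L.cP] at h1
  have h1' : (HB.map ψ).relIndex P = 3 := by omega
  have h2 : (HB.map ψ).relIndex V ≤ 3 :=
    (relIndex_le_of_le_right S.L.VP (by rw [h1']; norm_num)).trans h1'.le
  have h3 := card_mul_rel (inf_le_left : V ⊓ HB.map ψ ≤ V)
  rw [inf_relIndex_left, S.L.cV] at h3
  have h4 : 81 ≤ Nat.card (V ⊓ HB.map ψ : Subgroup Q) := by
    by_contra hcon
    push Not at hcon
    have h5 : Nat.card (V ⊓ HB.map ψ : Subgroup Q) * (HB.map ψ).relIndex V ≤ 80 * 3 :=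
      Nat.mul_le_mul (by omega) h2
    rw [h3] at h5
    omega
  -- the preimage
  have hr : V ⊓ HB.map ψ ≤ ψ.range := by
    rintro _ ⟨-, y, -, rfl⟩
    exact ⟨y, rfl⟩
  have h5 := card_map ψ (K := (V ⊓ HB.map ψ).comap ψ) (by
    intro y hy
    rw [mem_comap, (MonoidHom.mem_ker).1 hy]
    exact one_mem _)
  rw [map_comap_eq_self hr, S.D.card_ker] at h5
  have key : ∀ y ∈ (V ⊓ HB.map ψ).comap ψ, y.1.1 ∈ SG x.1.1 ∧ y.1.2 ∈ SG x.1.2 := by
    intro y hy
    obtain ⟨hyV, hyH⟩ := mem_inf.1 (mem_comap.1 hy)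
    have hyB : y ∈ HB := by
      have h6 : y ∈ (HB.map ψ).comap ψ := hyH
      rwa [comap_map_eq_self S.D.ker_le_HB] at h6
    have h6 : ∀ u ∈ HB.map ψ, ψ (x * y * x⁻¹ * y⁻¹) * u = u * ψ (x * y * x⁻¹ * y⁻¹) := by
      intro u hu
      have h7 := S.L.comm (ψ x) hv (ψ y) hyV u (S.VP hu)
      rw [map_mul, map_mul, map_mul, map_inv, map_inv]
      exact h7.symm
    obtain ⟨h7, h8⟩ := S.D.sc_of h6
    exact ⟨⟨hyB.1, h7⟩, ⟨hyB.2, h8⟩⟩
  have h6 : Nat.card ((V ⊓ HB.map ψ).comap ψ) ≤ Nat.card (SG x.1.1 × SG x.1.2) := by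
    refine Nat.card_le_card_of_injective
      (fun y : (V ⊓ HB.map ψ).comap ψ => (⟨y.1.1.1, (key y.1 y.2).1⟩, ⟨y.1.1.2, (key y.1 y.2).2⟩)) ?_
    intro y z h
    have h7 := congrArg (fun t : SG x.1.1 × SG x.1.2 => (t.1 : G3)) h
    have h8 := congrArg (fun t : SG x.1.1 × SG x.1.2 => (t.2 : G3)) h
    exact Subtype.ext (Subtype.ext (Prod.ext h7 h8))
  rw [Nat.card_prod] at h6
  have h7 := Nat.mul_le_mul (card_SG hd) (card_SG hd')
  omega

/-- Sylow subgroups over `V` centralize `z` -/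
theorem comm_z {P' : Subgroup Q} (hV : V ≤ P') (hc : Nat.card P' = 729) {p : Q} (hp : p ∈ P') :
    p * ψ z1 = ψ z1 * p := by
  have hVV := S.VV
  have h1 := card_mul_rel hV
  rw [S.L.cV, hc] at h1
  have h2 : V.relIndex P' = 3 := by omega
  have hn : (V.subgroupOf P').Normal := by
    apply normal_of_index_eq_minFac_card
    rw [hc]
    show V.relIndex P' = Nat.minFac 729
    rw [h2]
    norm_num
  have hnorm : ∀ p ∈ P', ∀ v ∈ V, p * v * p⁻¹ ∈ V := by
    intro p hp v hv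
    exact hn.conj_mem ⟨v, hV hv⟩ hv ⟨p, hp⟩
  have hz : ψ z1 ∈ V := by
    rw [hVV]
    exact ⟨z1, z1_mem, rfl⟩
  have h3 := hnorm p hp _ hz
  have h3' := h3
  rw [hVV] at h3'
  obtain ⟨y, hy, hyz⟩ := h3'
  have h4 : ∀ u ∈ HB.map ψ, ψ y * u = u * ψ y := by
    intro u hu
    have hu' : u ∈ V := by rw [hVV]; exact hu
    have h5 := hnorm _ (P'.inv_mem hp) u hu'
    rw [hVV] at h5
    obtain ⟨u', hu1, hu2⟩ := h5
    have h6 : ψ u' * ψ z1 = ψ z1 * ψ u' := z_comm u'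
    rw [hu2, inv_inv] at h6
    rw [hyz]
    calc p * ψ z1 * p⁻¹ * u = p * (ψ z1 * (p⁻¹ * u * p)) * p⁻¹ := by group
      _ = p * ((p⁻¹ * u * p) * ψ z1) * p⁻¹ := by rw [h6]
      _ = u * (p * ψ z1 * p⁻¹) := by group
  obtain ⟨h5, h6⟩ := S.D.sc_of h4
  rcases S.D.pow_z h5 h6 with h7 | h7 | h7
  · exfalso
    rw [hyz, conj_eq_one_iff] at h7
    exact S.D.z_ne h7
  · rw [hyz, mul_inv_eq_iff_eq_mul] at h7
    exact h7
  · exfalso
    rw [hyz] at h7
    have h8 : p * ψ z1 = ψ z1 * ψ z1 * p := by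
      rw [← h7]
      group
    have hz3 : ψ z1 * ψ z1 * ψ z1 = 1 := by
      have := S.D.z_cube
      rwa [pow_succ, pow_two] at this
    have h9 : (p * p) * ψ z1 = ψ z1 * (p * p) := by
      calc (p * p) * ψ z1 = p * (p * ψ z1) := by group
        _ = p * (ψ z1 * ψ z1 * p) := by rw [h8]
        _ = (p * ψ z1) * ψ z1 * p := by group
        _ = (ψ z1 * ψ z1 * p) * ψ z1 * p := by rw [h8]
        _ = ψ z1 * ψ z1 * (p * ψ z1) * p := by group
        _ = ψ z1 * ψ z1 * (ψ z1 * ψ z1 * p) * p := by rw [h8]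
        _ = (ψ z1 * ψ z1 * ψ z1) * ψ z1 * (p * p) := by group
        _ = ψ z1 * (p * p) := by rw [hz3, one_mul]
    have h10 : p ^ 729 = 1 := by
      have h11 := pow_card_eq_one' (G := P') (x := ⟨p, hp⟩)
      rw [hc] at h11
      exact congrArg Subtype.val h11
    have h11 : p = (p * p) ^ 365 := by
      rw [← pow_two, ← pow_mul]
      show p = p ^ (729 + 1)
      rw [pow_succ, h10, one_mul]
    have h12 : Commute (p * p) (ψ z1) := h9
    have h13 : Commute p (ψ z1) := by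
      rw [h11]
      exact h12.pow_left 365
    have h14 : ψ z1 * p = ψ z1 * ψ z1 * p := by rw [← h8]; exact h13.symm
    have h15 := mul_right_cancel h14
    exact S.D.z_ne (left_eq_mul.1 h15)

/-- **the first factor** -/
theorem comp1 {s : G3} (hs : dt s = 1) : ψ (bb hs (map_one dt)) ∈ N := by
  have hVV := S.VV
  have h1t : dt (1 : G3) = 1 := map_one dt
  let j1 : dt.ker →* BB :=
    { toFun := fun s => bb s.2 h1t
      map_one' := rfl
      map_mul' := fun a b => Subtype.ext (Prod.ext rfl (one_mul (1 : G3)).symm) }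
  let LL : Subgroup Q → Subgroup G3 := fun B => (B.comap (ψ.comp j1)).map dt.ker.subtype
  have memLL : ∀ (B : Subgroup Q) (s : G3), s ∈ LL B ↔ ∃ hs : dt s = 1, ψ (bb hs h1t) ∈ B := by
    intro B s
    constructor
    · rintro ⟨y, hy, rfl⟩
      exact ⟨y.2, hy⟩
    · rintro ⟨hs, h⟩
      exact ⟨⟨s, hs⟩, h, rfl⟩
  have hHL : ∀ B : Subgroup Q, V ≤ B → HH ≤ LL B := by
    intro B hB a ha
    rw [memLL]
    refine ⟨((mem_HH_iff _).1 ha).1, hB ?_⟩
    rw [hVV]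
    exact ⟨_, ⟨ha, HH.one_mem⟩, rfl⟩
  have hTL : ∀ B : Subgroup Q, P ≤ B → ∀ l ∈ LL B, eT * l * eT⁻¹ ∈ LL B := by
    intro B hB l hl
    rw [memLL] at hl ⊢
    obtain ⟨hl1, hl2⟩ := hl
    have hd : dt (eT * l * eT⁻¹) = 1 := by
      rw [map_mul, map_mul, map_inv, mul_comm (dt eT), mul_inv_cancel_right, hl1]
    refine ⟨hd, ?_⟩
    have e : bb hd h1t = t0 * bb hl1 h1t * t0⁻¹ := by
      apply Subtype.ext
      apply Prod.ext
      · rfl
      · show (1 : G3) = eT⁻¹ * 1 * (eT⁻¹)⁻¹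
        group
    rw [e, map_mul, map_mul, map_inv]
    exact B.mul_mem (B.mul_mem (hB S.tP) hl2) (B.inv_mem (hB S.tP))
  have hVA : V ≤ A := (S.L.VP.trans S.L.PN).trans S.L.NA
  have hPA : P ≤ A := S.L.PN.trans S.L.NA
  have F2 : eF * eF ∉ HH := by
    rw [mem_HH, tu_mul, tu_F]
    decide +kernel
  -- in `A`
  have hA : ∀ {s : G3} (hs : dt s = 1), ψ (bb hs h1t) ∈ A := by
    intro s hs
    by_cases hx : ψ (bb dt_F h1t) ∈ A
    · have h2 : eF ∈ LL A := (memLL _ _).2 ⟨dt_F, hx⟩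
      obtain ⟨_, h3⟩ := (memLL _ _).1 (gen_of (hHL A hVA) (hTL A hPA) h2 dt_F F2 hs)
      exact h3
    · have hVx : V ≤ cj (ψ (bb dt_F h1t)) A := by
        intro v hv
        rw [mem_cj]
        apply hVA
        rw [hVV] at hv ⊢
        exact conj_V' _ hv
      obtain ⟨P', hP'N, hP'x, hVP', cP'⟩ := S.L.par _ hx hVx
      have hex : ∃ u ∈ P', ∃ y : BB, u = ψ y ∧ dt y.1.1 ≠ 1 := by
        by_contra hcon
        push Not at hcon
        have h2 : P' ≤ SB.map ψ := by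
          intro u hu
          obtain ⟨y, hy⟩ := S.D.cen u (S.comm_z hVP' cP' hu)
          exact ⟨y, hcon u hu y hy, hy.symm⟩
        have h3 := card_dvd_of_le h2
        rw [cP', S.D.card_W] at h3
        exact absurd h3 (by norm_num)
      obtain ⟨u, hu, y, rfl, hy⟩ := hex
      have h2 : ψ y ∈ A := S.L.NA (hP'N hu)
      have h3 : (ψ (bb dt_F h1t))⁻¹ * ψ y * ψ (bb dt_F h1t) ∈ A := mem_cj.1 (hP'x hu)
      have h4 := A.mul_mem h3 (A.inv_mem h2)
      have hd : dt (eF⁻¹ * y.1.1 * eF * y.1.1⁻¹) = 1 := by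
        rw [map_mul, map_mul, map_mul, map_inv, map_inv, dt_F, inv_one, one_mul, mul_one, mul_inv_cancel]
      have e : bb hd h1t = (bb dt_F h1t)⁻¹ * y * bb dt_F h1t * y⁻¹ := by
        apply Subtype.ext
        apply Prod.ext
        · rfl
        · show (1 : G3) = 1⁻¹ * y.1.2 * 1 * y.1.2⁻¹
          group
      have h5 : eF⁻¹ * y.1.1 * eF * y.1.1⁻¹ ∈ LL A := by
        rw [memLL]
        refine ⟨hd, ?_⟩
        rw [e, map_mul, map_mul, map_mul, map_inv, map_inv]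
        exact h4
      obtain ⟨_, h6⟩ := (memLL _ _).1 (gen_of (hHL A hVA) (hTL A hPA) h5 hd (cc_spec hy) hs)
      exact h6
  -- in `N`
  have htN : ψ t0 ∈ N := S.L.PN S.tP
  have hxA := hA dt_F
  have h3 : (ψ (bb dt_F h1t))⁻¹ * ψ t0 * ψ (bb dt_F h1t) ∈ N := by
    have := S.L.nrm _ (A.inv_mem hxA) _ htN
    rwa [inv_inv] at this
  have h4 := N.mul_mem h3 (N.inv_mem htN)
  have hd : dt (eF⁻¹ * eT * eF * eT⁻¹) = 1 := by
    rw [map_mul, map_mul, map_mul, map_inv, map_inv, dt_F, inv_one, one_mul, mul_one, mul_inv_cancel]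
  have e : bb hd h1t = (bb dt_F h1t)⁻¹ * t0 * bb dt_F h1t * t0⁻¹ := by
    apply Subtype.ext
    apply Prod.ext
    · rfl
    · show (1 : G3) = 1⁻¹ * eT⁻¹ * 1 * (eT⁻¹)⁻¹
      group
  have h5 : eF⁻¹ * eT * eF * eT⁻¹ ∈ LL N := by
    rw [memLL]
    refine ⟨hd, ?_⟩
    rw [e, map_mul, map_mul, map_mul, map_inv, map_inv]
    exact h4
  obtain ⟨_, h6⟩ := (memLL _ _).1
    (gen_of (hHL N (S.L.VP.trans S.L.PN)) (hTL N S.L.PN) h5 hd (cc_spec dt_T_ne) hs)
  exact h6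

theorem swap : Stp A N P V (ψ.comp sw) where
  L := S.L
  cQ := S.cQ
  D := S.D.swap
  zP := by
    intro p hp
    rw [MonoidHom.comp_apply, S.D.sw_z1]
    have h := S.zP p hp
    rw [mul_inv_eq_iff_eq_mul, mul_assoc, h]
    group
  tP := by
    rw [MonoidHom.comp_apply, sw_t0, map_inv]
    exact P.inv_mem S.tP

/-- **the contradiction** -/
theorem false : False := by
  have hVV := S.VV
  have hW : SB.map ψ ≤ N := by
    rintro _ ⟨x, hx, rfl⟩
    have hx1 : dt x.1.1 = 1 := hx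
    have hx2 := dt_snd hx1
    have h1 := S.comp1 hx1
    have h2 := S.swap.comp1 hx2
    rw [MonoidHom.comp_apply] at h2
    have h3 := N.mul_mem h1 h2
    rw [← map_mul] at h3
    have e : bb hx1 (map_one dt) * sw (bb hx2 (map_one dt)) = x := by
      apply Subtype.ext
      apply Prod.ext
      · exact mul_one x.1.1
      · exact one_mul x.1.2
    rwa [e] at h3
  have h1 := S.L.small (SB.map ψ) hW (by
    rintro _ ⟨x, -, rfl⟩ v hv
    rw [hVV] at hv ⊢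
    exact conj_V x hv)
  rw [S.D.card_W] at h1
  omega

end Stp

/-- **The Q side.** -/
theorem q_side (L : LocN A N P V) (e : Q ≃* PSU 6 F4 2) : False := by
  have h3 : Fact (Nat.Prime 3) := ⟨Nat.prime_three⟩
  have cQ : Nat.card Q = 9196830720 := by
    rw [Nat.card_congr e.toEquiv]
    exact H18.USix.card_psu hF4
  have hP3 : IsPGroup 3 P := IsPGroup.of_card (n := 6) (by rw [L.cP]; norm_num)
  have hPn : Nontrivial P := by
    rw [← Finite.one_lt_card_iff_nontrivial, L.cP]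
    norm_num
  -- a central element
  obtain ⟨z, hz, hz1⟩ : ∃ z ∈ center P, z ≠ 1 := by
    have h1 := hP3.bot_lt_center
    obtain ⟨z, hz, hz1⟩ := SetLike.exists_of_lt h1
    exact ⟨z, hz, fun h => hz1 (by rw [h]; exact one_mem _)⟩
  have hzc : ∀ p ∈ P, p * (z : Q) = z * p := by
    intro p hp
    exact congrArg Subtype.val (mem_center_iff.1 hz ⟨p, hp⟩)
  have hz1' : e (z : Q) ≠ 1 := by
    rw [Ne, map_eq_one_iff e e.injective]
    intro h
    exact hz1 (Subtype.ext h)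
  have hdv : 3 ^ 6 ∣ Nat.card ↥(centralizer ({e (z : Q)} : Set (PSU 6 F4 2))) := by
    rw [← H18.USix.card_centralizer_equiv e (z : Q)]
    have h1 : P ≤ centralizer ({(z : Q)} : Set Q) := by
      intro p hp
      rw [mem_centralizer_singleton_iff]
      exact hzc p hp
    have h2 := card_dvd_of_le h1
    rw [L.cP] at h2
    exact (by norm_num : (3 : ℕ) ^ 6 = 729) ▸ h2
  obtain ⟨c, hc⟩ := isConj_iff.1 (conj_z hz1' hdv)
  -- the first homomorphism
  let ψ0 : BB →* Q := e.symm.toMonoidHom.comp psi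
  have D0 : Dat ψ0 := Dat.of_equiv e.symm
  let ψ1 : BB →* Q := (MulAut.conj (e.symm c)⁻¹).toMonoidHom.comp ψ0
  have D1 : Dat ψ1 := D0.conj _
  have hz1z : ψ1 z1 = z := by
    show (e.symm c)⁻¹ * e.symm (psi z1) * (e.symm c)⁻¹⁻¹ = z
    rw [← hc, map_mul, map_mul, map_inv, e.symm_apply_apply]
    group
  -- conjugate `t` into `P`
  have htc : ψ1 t0 ∈ centralizer ({(z : Q)} : Set Q) := by
    rw [mem_centralizer_singleton_iff, ← hz1z]
    exact z_comm t0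
  have htp : IsPGroup 3 (zpowers (ψ1 t0)) := by
    rw [IsPGroup.iff_orderOf]
    rintro ⟨g, hg⟩
    obtain ⟨k, rfl⟩ := hg
    have h1 : (⟨(fun n : ℤ => ψ1 t0 ^ n) k, ⟨k, rfl⟩⟩ : zpowers (ψ1 t0)) ^ 3 = 1 := by
      apply Subtype.ext
      show (ψ1 t0 ^ k) ^ 3 = 1
      rw [← zpow_natCast, ← zpow_mul, mul_comm, zpow_mul, zpow_natCast, ← map_pow, t0_cube, map_one, one_zpow]
    have h2 := orderOf_dvd_of_pow_eq_one h1
    rcases (Nat.dvd_prime Nat.prime_three).1 h2 with h | h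
    · exact ⟨0, by rw [h, pow_zero]⟩
    · exact ⟨1, by rw [h, pow_one]⟩
  obtain ⟨b, hb, hbt⟩ := exists_conj hP3 (pmax cQ L.cP) (C := centralizer ({(z : Q)} : Set Q)) (by
    intro p hp
    rw [mem_centralizer_singleton_iff]
    exact hzc p hp) htc htp
  have hbz : b * (z : Q) = z * b := mem_centralizer_singleton_iff.1 hb
  have hz2 : ((MulAut.conj b).toMonoidHom.comp ψ1) z1 = z := by
    show b * ψ1 z1 * b⁻¹ = z
    rw [hz1z, hbz, mul_inv_cancel_right]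
  exact Stp.false (ψ := (MulAut.conj b).toMonoidHom.comp ψ1) (A := A) (N := N) (P := P) (V := V)
    ⟨L, cQ, D1.conj b, by rw [hz2]; exact hzc, hbt⟩

end Cfsg.Agent.H968.EPU.QEnd
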