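import Cfsg.Agent.H968.EPU.PsiSix
import Cfsg.Agent.H968.EPU.LocN

/-!
# `U_4(3)` in `U_6(2)`, the 3-local argument in `U_6(2)` (helper968, S3499)

`q_side` : `LocN A N P V` and `Q ≃* PSU 6 F4 2` are contradictory.
-/

set_option autoImplicit false
set_option linter.unusedVariables false

namespace Cfsg.Agent.H968.EPU.QSide

open Cfsg Subgroup Cfsg.Agent.Lib.FieldFour Cfsg.Agent.Lib.FieldFour.F4 Cfsg.Agent.ClassicalGeometry.SU32
open Cfsg.Agent.H968.EPU Cfsg.Agent.H968.EPU.GUThree Cfsg.Agent.H968.EPU.PsiSix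

/-! ### general lemmas -/

section gen

variable {G : Type*} [Group G]

theorem card_mul_rel {H K : Subgroup G} (h : H ≤ K) : Nat.card H * H.relIndex K = Nat.card K := by
  have h1 := relIndex_mul_relIndex ⊥ H K bot_le h
  rwa [relIndex_bot_left, relIndex_bot_left] at h1

theorem card_map {G' : Type*} [Group G'] (f : G →* G') {K : Subgroup G} (hK : f.ker ≤ K) :
    Nat.card f.ker * Nat.card (K.map f) = Nat.card K := by
  rw [← relIndex_ker]
  exact card_mul_rel hK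

/-- a `p`-element in `C ≥ P` is conjugate in `C` into the Sylow subgroup `P` -/
theorem exists_conj [Finite G] {p : ℕ} [Fact p.Prime] {P C : Subgroup G} (hP : IsPGroup p P)
    (hmax : ∀ S : Subgroup G, IsPGroup p S → P ≤ S → S = P) (hPC : P ≤ C) {t : G} (ht : t ∈ C)
    (htp : IsPGroup p (zpowers t)) : ∃ b ∈ C, b * t * b⁻¹ ∈ P := by
  have key : ∃ P' : Sylow p C, (P' : Subgroup C) = P.subgroupOf C := by
    refine ⟨⟨P.subgroupOf C, hP.comap_subtype, fun {Q} h1 h2 => ?_⟩, rfl⟩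
    have h3 := hmax (Q.map C.subtype) (h1.map _) (by
      have := Subgroup.map_mono (f := C.subtype) h2
      rwa [subgroupOf_map_subtype, inf_eq_left.2 hPC] at this)
    rw [← h3]
    ext y
    rw [mem_subgroupOf]
    exact (mem_map_iff_mem C.subtype_injective).symm
  obtain ⟨P', hP'⟩ := key
  have htC : zpowers t ≤ C := by rw [zpowers_le]; exact ht
  obtain ⟨S, hS⟩ := (htp.comap_subtype (K := C)).exists_le_sylow
  obtain ⟨b, hb⟩ := MulAction.exists_smul_eq C S P'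
  refine ⟨b, b.2, ?_⟩
  have h1 : (⟨t, ht⟩ : C) ∈ (S : Subgroup C) := hS (show (⟨t, ht⟩ : C) ∈ (zpowers t).subgroupOf C from mem_zpowers t)
  have h2 : b * ⟨t, ht⟩ * b⁻¹ ∈ (P' : Subgroup C) := by
    rw [← hb]
    exact smul_mem_pointwise_smul _ (MulAut.conj b) _ h1
  rw [hP'] at h2
  exact h2

end gen

/-! ### subgroups of `BB` -/

theorem dt_snd {x : BB} (h : dt x.1.1 = 1) : dt x.1.2 = 1 := by
  have := mem_BB.1 x.2
  rwa [h, one_mul] at this

theorem dt_snd_ne {x : BB} (h : dt x.1.1 ≠ 1) : dt x.1.2 ≠ 1 := by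
  intro h2
  have := mem_BB.1 x.2
  rw [h2, mul_one] at this
  exact h this

/-- the elements of `BB` from two elements of determinant 1 -/
def bb {a b : G3} (ha : dt a = 1) (hb : dt b = 1) : BB := ⟨(a, b), by
  rw [mem_BB]
  show dt a * dt b = 1
  rw [ha, hb, one_mul]⟩

/-- `3^{1+2} × 3^{1+2}` -/
def HB : Subgroup BB where
  carrier := {x | x.1.1 ∈ HH ∧ x.1.2 ∈ HH}
  mul_mem' {a b} ha hb := ⟨HH.mul_mem ha.1 hb.1, HH.mul_mem ha.2 hb.2⟩
  one_mem' := ⟨HH.one_mem, HH.one_mem⟩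
  inv_mem' {a} ha := ⟨HH.inv_mem ha.1, HH.inv_mem ha.2⟩

theorem mem_HB {x : BB} : x ∈ HB ↔ x.1.1 ∈ HH ∧ x.1.2 ∈ HH := Iff.rfl

/-- `SU_3(2) × SU_3(2)` -/
def SB : Subgroup BB where
  carrier := {x | dt x.1.1 = 1}
  mul_mem' {a b} ha hb := by
    have ha' : dt a.1.1 = 1 := ha
    have hb' : dt b.1.1 = 1 := hb
    show dt (a.1.1 * b.1.1) = 1
    rw [map_mul, ha', hb', one_mul]
  one_mem' := map_one dt
  inv_mem' {a} ha := by
    have ha' : dt a.1.1 = 1 := ha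
    show dt (a.1.1)⁻¹ = 1
    rw [map_inv, ha', inv_one]

theorem mem_SB {x : BB} : x ∈ SB ↔ dt x.1.1 = 1 := Iff.rfl

theorem HB_le_SB : HB ≤ SB := fun _ hx => ((mem_HH_iff _).1 hx.1).1

theorem HB_conj {x : BB} (hx : x ∈ HB) (y : BB) : y * x * y⁻¹ ∈ HB :=
  ⟨HH.conj hx.1 y.1.1, HH.conj hx.2 y.1.2⟩

theorem card_HB : Nat.card HB = 729 := by
  let e : HB ≃ HH × HH :=
    { toFun := fun x => (⟨x.1.1.1, x.2.1⟩, ⟨x.1.1.2, x.2.2⟩)
      invFun := fun y => ⟨bb ((mem_HH_iff _).1 y.1.2).1 ((mem_HH_iff _).1 y.2.2).1, y.1.2, y.2.2⟩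
      left_inv := fun x => rfl
      right_inv := fun y => rfl }
  rw [Nat.card_congr e, Nat.card_prod, card_HH]

theorem card_SB : Nat.card SB = 46656 := by
  let e : SB ≃ dt.ker × dt.ker :=
    { toFun := fun x => (⟨x.1.1.1, x.2⟩, ⟨x.1.1.2, dt_snd x.2⟩)
      invFun := fun y => ⟨bb y.1.2 y.2.2, y.1.2⟩
      left_inv := fun x => rfl
      right_inv := fun y => rfl }
  rw [Nat.card_congr e, Nat.card_prod, card_ker]

instance : Finite BB := inferInstance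

/-- the swap -/
def sw : BB →* BB where
  toFun x := ⟨(x.1.2, x.1.1), by
    rw [mem_BB]
    show dt x.1.2 * dt x.1.1 = 1
    rw [mul_comm]
    exact x.2⟩
  map_one' := rfl
  map_mul' x y := rfl

theorem sw_sw (x : BB) : sw (sw x) = x := rfl

theorem HB_sw : HB.map sw = HB := by
  ext x
  constructor
  · rintro ⟨y, hy, rfl⟩
    exact ⟨hy.2, hy.1⟩
  · intro hx
    exact ⟨sw x, ⟨hx.2, hx.1⟩, rfl⟩

/-- `(T, T⁻¹)` -/
noncomputable def t0 : BB := ⟨(eT, eT⁻¹), by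
  rw [mem_BB]
  show dt eT * dt eT⁻¹ = 1
  rw [map_inv, mul_inv_cancel]⟩

theorem t0_cube : t0 ^ 3 = 1 := by
  apply Subtype.ext
  apply Prod.ext
  · exact T_cube
  · show (eT⁻¹) ^ 3 = 1
    rw [inv_pow, T_cube, inv_one]

theorem sw_t0 : sw t0 = t0⁻¹ := by
  apply Subtype.ext
  apply Prod.ext
  · rfl
  · show eT = (eT⁻¹)⁻¹
    rw [inv_inv]

/-! ### the data -/

/-- a homomorphism from `BB` onto the centralizer of an element of order 3 -/
structure Dat {Q : Type} [Group Q] (ψ : BB →* Q) : Prop where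
  ker : ∀ x, ψ x = 1 ↔ Sc x.1.1 ∧ x.1.1 = x.1.2
  cen : ∀ y : Q, y * ψ z1 = ψ z1 * y → ∃ x, y = ψ x

section dat

variable {Q : Type} [Group Q]

theorem Dat.of_equiv (e : PSU 6 F4 2 ≃* Q) : Dat (e.toMonoidHom.comp psi) := by
  constructor
  · intro x
    have h1 : (e.toMonoidHom.comp psi) x = e (psi x) := rfl
    rw [h1, map_eq_one_iff e e.injective]
    exact psi_eq_one_iff x
  · intro y hy
    have h1 : (e.toMonoidHom.comp psi) z1 = e (psi z1) := rfl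
    rw [h1] at hy
    obtain ⟨x, hx⟩ := PsiSix.cen (y := e.symm y) (by
      apply e.injective
      rw [map_mul, map_mul, e.apply_symm_apply, hy])
    refine ⟨x, ?_⟩
    show y = e (psi x)
    rw [← hx, e.apply_symm_apply]

variable {ψ : BB →* Q}

/-- the scalar `w` -/
noncomputable def ew : G3 := sc w (by decide)

theorem sc_ew : Sc ew := (isScal_iff _).2 ⟨w, by decide, rfl⟩

theorem tu_ew : tu ew = smulM w oneM := rfl

theorem z1_fst : z1.1.1 = 1 := rfl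

theorem z1_snd : z1.1.2 = ew := rfl

theorem z1_sw : z1 * sw z1 = bb sc_ew.dt sc_ew.dt := by
  apply Subtype.ext
  apply Prod.ext
  · exact one_mul ew
  · exact mul_one ew

theorem Dat.sw_z1 (D : Dat ψ) : ψ (sw z1) = (ψ z1)⁻¹ := by
  rw [eq_inv_iff_mul_eq_one]
  have h1 : ψ (z1 * sw z1) = 1 := by
    rw [z1_sw, D.ker]
    exact ⟨sc_ew, rfl⟩
  rw [z1_comm, map_mul] at h1
  exact h1

theorem Dat.swap (D : Dat ψ) : Dat (ψ.comp sw) := by
  constructor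
  · intro x
    rw [MonoidHom.comp_apply, D.ker]
    show Sc x.1.2 ∧ x.1.2 = x.1.1 ↔ _
    constructor
    · rintro ⟨h1, h2⟩
      exact ⟨h2 ▸ h1, h2.symm⟩
    · rintro ⟨h1, h2⟩
      exact ⟨h2 ▸ h1, h2.symm⟩
  · intro y hy
    rw [MonoidHom.comp_apply, D.sw_z1] at hy
    obtain ⟨x, hx⟩ := D.cen y (by
      calc y * ψ z1 = ψ z1 * ((ψ z1)⁻¹ * y) * ψ z1 := by group
        _ = ψ z1 * (y * (ψ z1)⁻¹) * ψ z1 := by rw [← hy]
        _ = ψ z1 * y := by group)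
    exact ⟨sw x, by rw [MonoidHom.comp_apply, sw_sw, hx]⟩

theorem Dat.conj (D : Dat ψ) (b : Q) : Dat ((MulAut.conj b).toMonoidHom.comp ψ) := by
  have hc : ∀ x, ((MulAut.conj b).toMonoidHom.comp ψ) x = b * ψ x * b⁻¹ := fun x => rfl
  constructor
  · intro x
    rw [hc, conj_eq_one_iff]
    exact D.ker x
  · intro y hy
    rw [hc] at hy
    obtain ⟨x, hx⟩ := D.cen (b⁻¹ * y * b) (by
      calc b⁻¹ * y * b * ψ z1 = b⁻¹ * (y * (b * ψ z1 * b⁻¹)) * b := by group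
        _ = b⁻¹ * ((b * ψ z1 * b⁻¹) * y) * b := by rw [hy]
        _ = ψ z1 * (b⁻¹ * y * b) := by group)
    refine ⟨x, ?_⟩
    rw [hc, ← hx]
    group

theorem Dat.ker_le_HB (D : Dat ψ) : ψ.ker ≤ HB := by
  intro x hx
  obtain ⟨h1, h2⟩ := (D.ker x).1 hx
  exact ⟨HH.of_sc h1, h2 ▸ HH.of_sc h1⟩

theorem Dat.card_ker (D : Dat ψ) : Nat.card ψ.ker = 3 := by
  have h0 : Nat.card {c : F4 // c ^ 3 = 1} = 3 := by
    rw [Nat.card_eq_fintype_card]
    decide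
  have hs : ∀ (c : F4) (hc : c ^ 3 = 1), Sc (sc c hc) := fun c hc => (isScal_iff _).2 ⟨c, hc, rfl⟩
  refine Eq.trans ?_ h0
  let φ : {c : F4 // c ^ 3 = 1} → ψ.ker := fun c => ⟨bb (hs c.1 c.2).dt (hs c.1 c.2).dt, by
    rw [MonoidHom.mem_ker, D.ker]
    exact ⟨hs c.1 c.2, rfl⟩⟩
  refine (Nat.card_congr (Equiv.ofBijective φ ⟨?_, ?_⟩)).symm
  · intro c d h
    have h1 : sc c.1 c.2 = sc d.1 d.2 := congrArg (fun z : ψ.ker => z.1.1.1) h
    have h2 := congrArg tu h1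
    rw [tu_sc, tu_sc] at h2
    apply Subtype.ext
    have h3 : ∀ a b : F4, smulM a oneM = smulM b oneM → a = b := by decide
    exact h3 _ _ h2
  · rintro ⟨x, hx⟩
    obtain ⟨h1, h2⟩ := (D.ker x).1 hx
    obtain ⟨c, hc, h3⟩ := (isScal_iff _).1 h1
    refine ⟨⟨c, hc⟩, ?_⟩
    apply Subtype.ext
    apply Subtype.ext
    apply Prod.ext
    · exact h3.symm
    · exact h3.symm.trans h2

theorem Dat.card_V (D : Dat ψ) : Nat.card (HB.map ψ) = 243 := by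
  have h := card_map ψ D.ker_le_HB
  rw [D.card_ker, card_HB] at h
  omega

theorem Dat.card_W (D : Dat ψ) : Nat.card (SB.map ψ) = 15552 := by
  have h := card_map ψ (D.ker_le_HB.trans HB_le_SB)
  rw [D.card_ker, card_SB] at h
  omega

/-- elements of `3^{1+2} ∘ 3^{1+2}` that commute with everything -/
theorem Dat.sc_of (D : Dat ψ) {x : BB} (h : ∀ v ∈ HB.map ψ, ψ x * v = v * ψ x) : Sc x.1.1 ∧ Sc x.1.2 := by
  have dD : dt eD = 1 := ((mem_HH_iff _).1 D_mem).1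
  have dP : dt eP = 1 := ((mem_HH_iff _).1 P_mem).1
  have key : ∀ (a b : G3) (ha : dt a = 1) (hb : dt b = 1), a ∈ HH → b ∈ HH →
      Sc (x.1.1 * a * x.1.1⁻¹ * a⁻¹) ∧ x.1.1 * a * x.1.1⁻¹ * a⁻¹ = x.1.2 * b * x.1.2⁻¹ * b⁻¹ := by
    intro a b ha hb ha' hb'
    have h1 := h (ψ (bb ha hb)) ⟨bb ha hb, ⟨ha', hb'⟩, rfl⟩
    have h2 : ψ (x * bb ha hb * x⁻¹ * (bb ha hb)⁻¹) = 1 := by
      rw [map_mul, map_mul, map_mul, map_inv, map_inv, h1]
      group
    obtain ⟨h3, h4⟩ := (D.ker _).1 h2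
    have e1 : (x * bb ha hb * x⁻¹ * (bb ha hb)⁻¹).1.1 = x.1.1 * a * x.1.1⁻¹ * a⁻¹ := rfl
    have e2 : (x * bb ha hb * x⁻¹ * (bb ha hb)⁻¹).1.2 = x.1.2 * b * x.1.2⁻¹ * b⁻¹ := rfl
    rw [e1] at h3 h4
    rw [e2] at h4
    exact ⟨h3, h4⟩
  have hc : ∀ (g a : G3), g * a * g⁻¹ * a⁻¹ = 1 → g * a = a * g := by
    intro g a h1
    rw [mul_inv_eq_one, mul_inv_eq_iff_eq_mul] at h1
    exact h1
  have one1 : ∀ g : G3, g * 1 * g⁻¹ * 1⁻¹ = 1 := by
    intro g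
    group
  constructor
  · apply sc_of_comm
    · apply hc
      rw [(key eD 1 dD (map_one dt) D_mem HH.one_mem).2, one1]
    · apply hc
      rw [(key eP 1 dP (map_one dt) P_mem HH.one_mem).2, one1]
  · apply sc_of_comm
    · apply hc
      rw [← (key 1 eD (map_one dt) dD HH.one_mem D_mem).2, one1]
    · apply hc
      rw [← (key 1 eP (map_one dt) dP HH.one_mem P_mem).2, one1]

/-- scalar pairs are powers of `z` -/
theorem Dat.pow_z (D : Dat ψ) {x : BB} (h1 : Sc x.1.1) (h2 : Sc x.1.2) :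
    ψ x = 1 ∨ ψ x = ψ z1 ∨ ψ x = ψ z1 * ψ z1 := by
  obtain ⟨c, hc, h3⟩ := (isScal_iff _).1 h1
  obtain ⟨d, hd, h4⟩ := (isScal_iff _).1 h2
  have key : ∀ k : ℕ, tu (x.1.1 * x.1.2⁻¹ * ew ^ k) = oneM → ψ x = ψ z1 ^ k := by
    intro k hk
    rw [← map_pow]
    have h5 : ψ (x * (z1 ^ k)⁻¹) = 1 := by
      rw [D.ker]
      have e1 : (x * (z1 ^ k)⁻¹).1.1 = x.1.1 := by
        show x.1.1 * ((1 : G3) ^ k)⁻¹ = x.1.1
        rw [one_pow, inv_one, mul_one]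
      have e2 : (x * (z1 ^ k)⁻¹).1.2 = x.1.2 * (ew ^ k)⁻¹ := rfl
      rw [e1, e2]
      refine ⟨h1, ?_⟩
      have h6 : x.1.1 * x.1.2⁻¹ * ew ^ k = 1 := tu_inj (by rw [hk, tu_one])
      rw [eq_mul_inv_iff_mul_eq]
      have h7 : x.1.1 * x.1.2⁻¹ * ew ^ k * x.1.2 = x.1.2 := by rw [h6, one_mul]
      have h8 : ew ^ k * x.1.2 = x.1.2 * ew ^ k := (Commute.pow_left (sc_ew.comm x.1.2) k)
      rw [mul_assoc, h8] at h7
      rw [← h7]
      group
    rw [map_mul, map_inv, mul_inv_eq_one] at h5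
    exact h5
  have h5 : ∀ c d : F4, c ^ 3 = 1 → d ^ 3 = 1 → mulM (smulM c oneM) (starM (smulM d oneM)) = oneM ∨
      mulM (mulM (smulM c oneM) (starM (smulM d oneM))) (smulM w oneM) = oneM ∨
      mulM (mulM (smulM c oneM) (starM (smulM d oneM))) (mulM (smulM w oneM) (smulM w oneM)) = oneM := by
    decide +kernel
  rcases h5 c d hc hd with h | h | h
  · left
    rw [key 0, pow_zero]
    rw [pow_zero, mul_one, tu_mul, tu_inv, h3, h4, tu_sc, tu_sc, h]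
  · right; left
    rw [key 1, pow_one]
    rw [pow_one, tu_mul, tu_mul, tu_inv, h3, h4, tu_sc, tu_sc, tu_ew, h]
  · right; right
    rw [key 2, pow_two]
    rw [pow_two, tu_mul, tu_mul, tu_mul, tu_inv, h3, h4, tu_sc, tu_sc, tu_ew, h]

theorem Dat.z_ne (D : Dat ψ) : ψ z1 ≠ 1 := by
  intro h
  obtain ⟨-, h1⟩ := (D.ker _).1 h
  rw [z1_fst, z1_snd] at h1
  have h3 := congrArg tu h1
  rw [tu_one, tu_ew] at h3
  exact absurd h3 (by decide)

theorem z1_mem : z1 ∈ HB := by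
  refine ⟨HH.one_mem, ?_⟩
  exact HH.of_sc sc_ew

theorem z_comm (x : BB) : ψ x * ψ z1 = ψ z1 * ψ x := by
  rw [← map_mul, ← map_mul, z1_comm]

theorem Dat.z_cube (_ : Dat ψ) : ψ z1 ^ 3 = 1 := by
  rw [← map_pow]
  have : z1 ^ 3 = 1 := by
    apply Subtype.ext
    apply Prod.ext
    · show (1 : G3) ^ 3 = 1
      rw [one_pow]
    · exact sc_ew.cube
  rw [this, map_one]

end dat

end Cfsg.Agent.H968.EPU.QSide
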