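import Cfsg.Agent.H968.EPU.QEnd
import Cfsg.Agent.H781.EPU.NSide
import Cfsg.Agent.H117.EP.ModelPSL
import Cfsg.Agent.LieClassical.FieldTransfer

/-!
# S3499: the tight row `U_4(3) < U_6(2)` (helper968 and helper781)
-/

set_option autoImplicit false

namespace Cfsg.Agent.H968.EPU

open Cfsg Subgroup Cfsg.Agent.H284 Cfsg.Agent.H419.EP Cfsg.Agent.Lib.FieldFour
open scoped MatrixGroups

/-- **The tight row `U_4(3) < U_6(2)`.** -/
theorem u43_u62 {Q : Type} [Group Q] [Finite Q] (_ : IsSimpleGroup Q) {A : Subgroup Q} {Γ : Subgroup (MulAut Q)}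
    (h : EPT A Γ) {F : Type} [Field F] [Fintype F] (hF : Fintype.card F = 2 ^ 2)
    (m : Model Q (Cfsg.GU 6 F 2 ⊓ Cfsg.Geo.specialLinear (Fin 6) F)) (_ : Nat.card Q = 9196830720)
    {K : Type} [Field K] [Fintype K] (hK : Fintype.card K = 9) (hsoc : HasSoc A (Cfsg.PSU 4 K 3)) : False := by
  obtain ⟨m'⟩ := H117.EP.model_PSU (n := 6) hF (by norm_num)
  have hk : m.π.ker = m'.π.ker := by
    ext s
    rw [MonoidHom.mem_ker, MonoidHom.mem_ker, m.ker, m'.ker]
  have e : Q ≃* Cfsg.PSU 6 F 2 := (QuotientGroup.quotientKerEquivOfSurjective m.π m.surj).symm.trans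
    ((QuotientGroup.quotientMulEquivOfEq hk).trans (QuotientGroup.quotientKerEquivOfSurjective m'.π m'.surj))
  have e2 : Cfsg.PSU 6 F 2 ≃* Cfsg.PSU 6 F4 2 :=
    Cfsg.Agent.LieClassical.FieldTransfer.psuCongr 6 2 (equivOfCard (by rw [hF]; norm_num))
  obtain ⟨N, P, V, L⟩ := H781.EPU.n_side h hK hsoc
  exact QEnd.q_side L (e.trans e2)

end Cfsg.Agent.H968.EPU
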